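import Mathlib
import Cfsg.Agent.H900.BinLin.Cover

/-!
# The case `p = 2`: a noncommuting pair is good
-/

set_option autoImplicit false
set_option linter.unusedSectionVars false
set_option linter.unusedVariables false

namespace Cfsg.Agent.H900.BinLin

namespace BinN

variable {H V : Type*} [Group H] [AddCommGroup V] [DistribMulAction H V]
  [Finite V] [Finite H]

theorem Im_le_U_two (hB : BinN 2 H V) {g : H} (hg : g ∈ TT H V) : Im V g ≤ U V g := by
  intro w hw
  rw [mem_U, hB.TT_smul_Im hg hw, hB.neg_two]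

/-- an element of `K` acting trivially on `V/Z` acts trivially on `Im s`. -/
theorem fix_Im_two (hB : BinN 2 H V) {s : H} (hs : s ∈ TT H V) {Z : AddSubgroup V}
    (hZs : Z ≤ U V s) {g : H} (hgZ : ∀ z ∈ Z, g • z = z) (hg : ∀ v : V, g • v - v ∈ Z) {u : V}
    (hu : u ∈ Im V s) : g • u = u := by
  by_contra hne
  set w := g • u - u with hw
  have hw0 : w ≠ 0 := fun h => hne (sub_eq_zero.mp h)
  have hwZ : w ∈ Z := hg u
  have hgu : g • u = u + w := by rw [hw]; abel
  obtain ⟨τ, hτ, hτv⟩ := hB.exists_inv w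
  have hsw : s • w = w := mem_U.mp (hZs hwZ)
  have hsu : s • u = u := mem_U.mp (hB.Im_le_U_two hs hu)
  -- for every `x` with `s x = x + u`, `τ x = x + w`
  have key : ∀ x : V, s • x = x + u → τ • x = x + w := by
    intro x hx
    rw [← hτv]
    set z0 := g⁻¹ • x - x with hz0
    have hz0Z : z0 ∈ Z := by
      have h1 := hg (g⁻¹ • x)
      rw [smul_inv_smul] at h1
      have : z0 = -(x - g⁻¹ • x) := by rw [hz0]; abel
      rw [this]; exact Z.neg_mem h1
    have e1 : g⁻¹ • x = x + z0 := by rw [hz0]; abel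
    have e2 : s • (x + z0) = x + z0 + u := by
      rw [smul_add, hx, mem_U.mp (hZs hz0Z)]; abel
    have e3 : g • (x + z0) = x := by rw [← e1, smul_inv_smul]
    have e4 : g • (x + z0 + u) = x + u + w := by rw [smul_add, e3, hgu]; abel
    have e5 : s • (x + u + w) = x + w := by
      rw [smul_add, smul_add, hx, hsu, hsw, add_assoc x u u, hB.add_self_two, add_zero]
    refine ⟨s * (g * s * g⁻¹), ?_⟩
    rw [mul_smul, mul_smul, mul_smul, e1, e2, e4, e5]
  obtain ⟨x, hx⟩ := mem_Im.mp hu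
  have h1 : ∀ u' ∈ U V s, τ • u' = u' := by
    intro u' hu'
    have e1 : s • (x + u') = x + u' + u := by rw [smul_add, hx, mem_U.mp hu']; abel
    have e2 := key _ e1
    rw [smul_add, key x hx] at e2
    have e3 : x + w + τ • u' = x + w + u' := by rw [e2]; abel
    exact add_left_cancel e3
  have h2 : τ • u = u := h1 u (mem_U.mpr hsu)
  have h3 : τ • u = u + w := (hτv u).mp ⟨g, hgu⟩
  rw [h2] at h3
  exact hw0 (by simpa using h3)

/-- `K` is faithful on `V/Z`. -/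
theorem faithful_two (hB : BinN 2 H V) {s t : H} (hs : s ∈ TT H V) (ht : t ∈ TT H V)
    (hst : s * t ≠ t * s) {g : H} (hgK : g ∈ KK V s t) (hg : ∀ v : V, g • v - v ∈ ZZ V s t) :
    g = 1 := by
  apply hB.faith
  intro v
  obtain ⟨y, hy, z, hz, rfl⟩ := hB.exists_decomp hs ht hst v
  obtain ⟨a, ha, b, hb, rfl⟩ := mem_YY.mp hy
  rw [smul_add, smul_add, hgK z hz, hB.fix_Im_two hs inf_le_left hgK hg ha,
    hB.fix_Im_two ht inf_le_right hgK hg hb]

/-- `U r = Im r + Z`. -/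
theorem U_eq_two (hB : BinN 2 H V) {s t : H} (hs : s ∈ TT H V) (ht : t ∈ TT H V)
    (hst : s * t ≠ t * s) {r : H} (hr : r ∈ TT H V) (hrK : r ∈ KK V s t) :
    Im V r ⊔ ZZ V s t = U V r := by
  apply SetLike.coe_injective
  apply Set.eq_of_subset_of_ncard_le _ _ (Set.toFinite _)
  · exact sup_le (hB.Im_le_U_two hr) (mem_KK_iff_le.mp hrK)
  · rw [← Nat.card_coe_set_eq, ← Nat.card_coe_set_eq]
    change Nat.card (U V r) ≤ Nat.card (Im V r ⊔ ZZ V s t : AddSubgroup V)
    rw [hB.card_U_K hs ht hst hr hrK, ← hB.card_Im_K hs ht hst hr hrK, ← Nat.card_prod]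
    refine Nat.card_le_card_of_injective (fun x : Im V r × ZZ V s t =>
      (⟨(x.1 : V) + (x.2 : V), AddSubgroup.mem_sup.mpr ⟨_, x.1.2, _, x.2.2, rfl⟩⟩ :
        (Im V r ⊔ ZZ V s t : AddSubgroup V))) ?_
    rintro ⟨a, z⟩ ⟨a', z'⟩ h
    have h' : (a : V) + (z : V) = (a' : V) + (z' : V) := congrArg Subtype.val h
    have h1 : (a : V) - (a' : V) = (z' : V) - (z : V) := by
      have : (a : V) - (a' : V) = ((a : V) + (z : V)) - (a' : V) - (z : V) := by abel
      rw [this, h']; abel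
    have h2 : (a : V) - (a' : V) = 0 := by
      refine hB.Im_inf_ZZ hs ht hst hr hrK ((Im V r).sub_mem a.2 a'.2) ?_
      rw [h1]; exact (ZZ V s t).sub_mem z'.2 z.2
    have e1 : a = a' := Subtype.ext (sub_eq_zero.mp h2)
    rw [h2] at h1
    have e3 : z = z' := (Subtype.ext (sub_eq_zero.mp h1.symm)).symm
    rw [e1, e3]

theorem U_eq_of_comm_two (hB : BinN 2 H V) {s t : H} (hs : s ∈ TT H V) (ht : t ∈ TT H V)
    (hst : s * t ≠ t * s) {r r' : H} (hr : r ∈ TT H V) (hrK : r ∈ KK V s t)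
    (hr' : r' ∈ TT H V) (hrK' : r' ∈ KK V s t) (h : r * r' = r' * r) : U V r = U V r' := by
  by_cases hne : r = r'
  · rw [hne]
  have h1 : ∀ {a b : H}, a ∈ TT H V → a ∈ KK V s t → b ∈ TT H V → b ∈ KK V s t → a ≠ b →
      a * b = b * a → U V b ≤ U V a := by
    intro a b ha haK hb hbK hne h
    rw [← hB.U_eq_two hs ht hst hb hbK]
    refine sup_le ?_ (mem_KK_iff_le.mp haK)
    intro w hw
    exact mem_U.mpr (hB.TT_fix_of_comm ha hb hne h hw)
  exact le_antisymm (h1 hr' hrK' hr hrK (Ne.symm hne) h.symm) (h1 hr hrK hr' hrK' hne h)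

/-- every `w ≠ 0` in `Im g`, `g ∈ K`, is attached to an element of `TT`. -/
theorem B_two (hB : BinN 2 H V) {s t : H} (hs : s ∈ TT H V) (ht : t ∈ TT H V)
    (hst : s * t ≠ t * s) {g : H} (hg : g ∈ KK V s t) {w : V} (hw : w ∈ Im V g) (hw0 : w ≠ 0) :
    ∃ τ ∈ TT H V, τ ∈ KK V s t ∧ w ∈ Im V τ := by
  obtain ⟨τ, hτ, hτv⟩ := hB.exists_inv w
  have hUg : U V g ≤ U V τ := U_le_of_trans hw fun v hv => (hτv v).mp hv
  have hτK : τ ∈ KK V s t := mem_KK_iff_le.mpr ((mem_KK_iff_le.mp hg).trans hUg)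
  obtain ⟨x, hx⟩ := mem_Im.mp hw
  have hτx : τ • x = x + w := (hτv x).mp ⟨g, hx⟩
  have hτ1 : τ ≠ 1 := by
    rintro rfl
    rw [one_smul] at hτx
    exact hw0 (by simpa using hτx)
  suffices h : τ ∈ TT H V from ⟨τ, h, hτK, mem_Im.mpr ⟨x, hτx⟩⟩
  obtain ⟨r, hr, hle⟩ := exists_TT_ge (V := V) τ hτ1
  have hrK : r ∈ KK V s t := mem_KK_iff_le.mpr ((mem_KK_iff_le.mp hτK).trans hle)
  have hτi : τ⁻¹ = τ := inv_eq_of_mul_eq_one_left hτ
  set r' := τ * r * τ⁻¹ with hr'
  have hr'T : r' ∈ TT H V := TT_conj hr τ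
  have hle' : U V τ ≤ U V r' := by
    intro v hv
    rw [hr', mem_U_conj, inv_smul_eq_iff.mpr (mem_U.mp hv).symm]
    exact hle hv
  have hr'K : r' ∈ KK V s t := mem_KK_iff_le.mpr ((mem_KK_iff_le.mp hτK).trans hle')
  have hcomm : r * r' = r' * r := by
    by_contra hno
    have h1 := hB.U_inf_of_noncomm hs ht hst hr hrK hr'T hr'K hno
    apply hτ1
    apply hB.faithful_two hs ht hst hτK
    intro v
    rw [← h1]
    have h2 : τ • v - v ∈ U V τ := by
      rw [mem_U, smul_sub, ← mul_smul, hτ, one_smul]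
      have : v - τ • v = -(τ • v - v) := by abel
      rw [this, hB.neg_two]
    exact ⟨hle h2, hle' h2⟩
  have hUeq := hB.U_eq_of_comm_two hs ht hst hr hrK hr'T hr'K hcomm
  -- an element `r0` with the same fixed space commuting with `τ`
  obtain ⟨r0, hr0, hr0U, hr0c⟩ : ∃ r0 ∈ TT H V, U V r0 = U V r ∧ τ * r0 = r0 * τ := by
    by_cases hrr : r = r'
    · refine ⟨r, hr, rfl, ?_⟩
      have : r * τ = τ * r := by
        nth_rewrite 1 [hrr]
        rw [hr']
        group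
      exact this.symm
    · have hne1 : r * r' ≠ 1 := by
        intro h
        apply hrr
        have := inv_eq_of_mul_eq_one_left h
        rw [hB.TT_inv hr'T] at this
        exact this.symm
      have h1 : U V r ≤ U V (r * r') := by
        intro v hv
        have h5 : r' • v = v := mem_U.mp (by rw [← hUeq]; exact hv)
        rw [mem_U, mul_smul, h5, mem_U.mp hv]
      obtain ⟨h2, h3⟩ := TT_of_U_le hr hne1 h1
      refine ⟨r * r', h2, h3, ?_⟩
      have e1 : τ * r = r' * τ := by rw [hr']; group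
      have e2 : τ * r' = r * τ := by
        rw [hr', hτi]
        calc τ * (τ * r * τ) = (τ * τ) * (r * τ) := by simp only [mul_assoc]
          _ = r * τ := by rw [hτ, one_mul]
      calc τ * (r * r') = (τ * r) * r' := (mul_assoc _ _ _).symm
        _ = (r' * τ) * r' := by rw [e1]
        _ = r' * (τ * r') := mul_assoc _ _ _
        _ = r' * (r * τ) := by rw [e2]
        _ = (r' * r) * τ := (mul_assoc _ _ _).symm
        _ = (r * r') * τ := by rw [hcomm]
  have hr0K : r0 ∈ KK V s t := by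
    rw [mem_KK_iff_le, hr0U]; exact mem_KK_iff_le.mp hrK
  have h1 : U V r0 ≤ U V τ := by
    rw [← hB.U_eq_two hs ht hst hr0 hr0K]
    refine sup_le ?_ (mem_KK_iff_le.mp hτK)
    intro a ha
    have h2 : τ • a ∈ Im V r0 := by
      have := conj_mem_Im (k := τ) ha
      rwa [hr0c, mul_inv_cancel_right] at this
    rw [mem_U]
    rcases hB.TT_norm hr0 ha h2 with h | h
    · exact h
    · rw [h, hB.neg_two]
  exact (TT_of_U_le hr0 hτ1 h1).1

theorem propB_two (hB : BinN 2 H V) {s t : H} (hs : s ∈ TT H V) (ht : t ∈ TT H V)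
    (hst : s * t ≠ t * s) : PropB V s t := by
  intro g hg w hw hw0
  obtain ⟨τ, hτ, hτK, hwτ⟩ := hB.B_two hs ht hst hg hw hw0
  exact ⟨τ, hτK, hB.TT_sq hτ, Or.inl hτ, fun v hv => (hB.TT_iff hτ hw0 hwτ v).mp hv⟩

/-- each `K`-class outside `Z` meets `U r` in at most one point. -/
theorem class_inf_U_two (hB : BinN 2 H V) {s t : H} (hs : s ∈ TT H V) (ht : t ∈ TT H V)
    (hst : s * t ≠ t * s) {r : H} (hr : r ∈ TT H V) (hrK : r ∈ KK V s t) {x : V}
    (hx : r • x = x) {k : H} (hk : k ∈ KK V s t) (hkx : r • k • x = k • x) : k • x = x := by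
  by_contra hne
  set w := k • x - x with hw
  have hw0 : w ≠ 0 := fun h => hne (sub_eq_zero.mp h)
  obtain ⟨τ, hτ, hτK, hwτ⟩ := hB.B_two hs ht hst hk (sub_mem_Im k x) hw0
  have hτx : τ • x = x + w := (hB.TT_iff hτ hw0 hwτ x).mp ⟨k, by rw [hw]; abel⟩
  by_cases hc : r * τ = τ * r
  · have h1 := hB.U_eq_of_comm_two hs ht hst hr hrK hτ hτK hc
    have h2 : x ∈ U V τ := h1 ▸ mem_U.mpr hx
    rw [mem_U.mp h2] at hτx
    exact hw0 (by simpa using hτx)
  · have h1 := hB.U_inf_of_noncomm hs ht hst hr hrK hτ hτK hc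
    have h2 : w ∈ U V r := by rw [mem_U, hw, smul_sub, hx, hkx]
    have h3 : w ∈ ZZ V s t := by rw [← h1]; exact ⟨h2, hB.Im_le_U_two hτ hwτ⟩
    exact hw0 (hB.Im_inf_ZZ hs ht hst hτ hτK hwτ h3)

/-- distinct elements of `TT ∩ K` have distinct fixed spaces. -/
theorem U_inj_two (hB : BinN 2 H V) {s t : H} (hs : s ∈ TT H V) (ht : t ∈ TT H V)
    (hst : s * t ≠ t * s) {r₁ r₂ : H} (h₁ : r₁ ∈ TT H V) (h₁K : r₁ ∈ KK V s t)
    (h₂ : r₂ ∈ TT H V) (h₂K : r₂ ∈ KK V s t) (hU : U V r₁ = U V r₂) : r₁ = r₂ := by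
  classical
  -- an element `r₀` of `TT ∩ K` not commuting with `r₁`
  obtain ⟨r₀, h₀, h₀K, h₀n⟩ : ∃ r₀ ∈ TT H V, r₀ ∈ KK V s t ∧ r₁ * r₀ ≠ r₀ * r₁ := by
    by_contra hno
    push Not at hno
    exact hB.not_comm_both hs ht hst h₁ h₁K (hno s hs (left_mem_KK s t))
      (hno t ht (right_mem_KK s t))
  obtain ⟨x, hx, hx0⟩ := hB.Im_ne_bot h₀.1
  have hxr : r₀ • x = x := mem_U.mp (hB.Im_le_U_two h₀ hx)
  have hxZ : x ∉ ZZ V s t := fun h => hx0 (hB.Im_inf_ZZ hs ht hst h₀ h₀K hx h)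
  let R : Type _ := {r : H // r ∈ TT H V ∧ r ∈ KK V s t ∧ r • x ≠ x}
  -- the map `f`
  have hf : ∀ r : R, ∃ r' : R, r'.1 • r.1 • x = r.1 • x := by
    rintro ⟨r, hr, hrK, hrx⟩
    have hrxZ : r • x ∉ ZZ V s t := by
      intro h
      apply hxZ
      have := hrK _ h
      rw [← mul_smul, hB.TT_sq hr, one_smul] at this
      rw [this]; exact h
    obtain ⟨r', hr', hrK', hrx'⟩ := hB.exists_fix_of_B hs ht hst (hB.propB_two hs ht hst) hrxZ
    refine ⟨⟨r', hr', hrK', fun h => ?_⟩, hrx'⟩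
    -- `r'` fixes `x` and `r x`
    exact hrx (hB.class_inf_U_two hs ht hst hr' hrK' h hrK hrx')
  choose f hf using hf
  have hinj : Function.Injective (fun r : R => U V (f r).1) := by
    intro a b hab
    have hab' : U V (f a).1 = U V (f b).1 := hab
    have h1 : (f a).1 • b.1 • x = b.1 • x := by
      rw [← mem_U, hab', mem_U]; exact hf b
    -- both `a x` and `b x` are fixed by `f a`
    have h2 : (b.1 * a.1⁻¹) • a.1 • x = a.1 • x := by
      refine hB.class_inf_U_two hs ht hst (f a).2.1 (f a).2.2.1 (hf a)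
        ((KK V s t).mul_mem b.2.2.1 ((KK V s t).inv_mem a.2.2.1)) ?_
      rw [mul_smul, inv_smul_smul]
      exact h1
    rw [mul_smul, inv_smul_smul] at h2
    -- so `a x = b x`
    have h3 : a.1 • x - x ≠ 0 := fun h => a.2.2.2 (sub_eq_zero.mp h)
    have h4 := hB.TT_unique a.2.1 b.2.1 h3 (sub_mem_Im a.1 x)
      (by rw [← h2]; exact sub_mem_Im b.1 x)
    exact Subtype.ext h4
  have hfinj : Function.Injective f := fun a b hab => hinj (by simp only [hab])
  have hfbij : Function.Bijective f := Finite.injective_iff_bijective.mp hfinj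
  have hgx : ∀ r ∈ TT H V, r ∈ KK V s t → r₁ = r ∨ U V r = U V r₁ → r • x ≠ x := by
    intro r hr hrK hor hrx
    have hU1 : U V r = U V r₁ := by
      rcases hor with h | h
      · rw [h]
      · exact h
    have h1 : x ∈ U V r₁ := by rw [← hU1]; exact mem_U.mpr hrx
    have h2 := hB.U_inf_of_noncomm hs ht hst h₁ h₁K h₀ h₀K h₀n
    exact hxZ (by rw [← h2]; exact ⟨h1, mem_U.mpr hxr⟩)
  obtain ⟨a, ha⟩ := hfbij.2 ⟨r₁, h₁, h₁K, hgx r₁ h₁ h₁K (Or.inl rfl)⟩
  obtain ⟨b, hb⟩ := hfbij.2 ⟨r₂, h₂, h₂K, hgx r₂ h₂ h₂K (Or.inr hU.symm)⟩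
  have hab : a = b := by
    apply hinj
    simp only [ha, hb, hU]
  rw [hab, hb] at ha
  exact (congrArg Subtype.val ha).symm

theorem good_two (hB : BinN 2 H V) {s t : H} (hs : s ∈ TT H V) (ht : t ∈ TT H V)
    (hst : s * t ≠ t * s) : Good V s t := by
  have hPB := hB.propB_two hs ht hst
  have hPU : PropU V s t := by
    intro r hr hrK r' hr' hrK' x hx hrx hrx'
    by_cases hc : r * r' = r' * r
    · exact hB.U_inj_two hs ht hst hr hrK hr' hrK'
        (hB.U_eq_of_comm_two hs ht hst hr hrK hr' hrK' hc)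
    · exfalso
      apply hx
      rw [← hB.U_inf_of_noncomm hs ht hst hr hrK hr' hrK' hc]
      exact ⟨mem_U.mpr hrx, mem_U.mpr hrx'⟩
  refine ⟨hPU, ?_, fun r hr hrK x hx hrx k hk hkx =>
    hB.stab_of_B hs ht hst hPB hPU hr hrK hx hrx hk hkx⟩
  intro k hk x hx
  by_cases hkx : k • x = x
  · rw [hkx]
    exact hB.exists_fix_of_B hs ht hst hPB hx
  · have hw0 : k • x - x ≠ 0 := fun h => hkx (sub_eq_zero.mp h)
    obtain ⟨τ, hτ, hτK, hwτ⟩ := hB.B_two hs ht hst hk (sub_mem_Im k x) hw0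
    refine ⟨τ, hτ, hτK, ?_⟩
    have := (hB.TT_iff hτ hw0 hwτ x).mp ⟨k, by abel⟩
    rw [this]; abel

end BinN

end Cfsg.Agent.H900.BinLin
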