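import Mathlib
import Cfsg.Agent.H900.BinLin.Two

/-!
# The case `p = 2`: the end
-/

set_option autoImplicit false
set_option linter.unusedSectionVars false
set_option linter.unusedVariables false

namespace Cfsg.Agent.H900.BinLin

theorem KK_comm {H V : Type*} [Group H] [AddCommGroup V] [DistribMulAction H V] (s t : H) :
    KK V s t = KK V t s := by
  ext g
  rw [mem_KK_iff_le, mem_KK_iff_le, ZZ, ZZ, inf_comm]

theorem YY_comm {H V : Type*} [Group H] [AddCommGroup V] [DistribMulAction H V] (s t : H) :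
    YY V s t = YY V t s := by
  rw [YY, YY, sup_comm]

namespace BinN

variable {H V : Type*} [Group H] [AddCommGroup V] [DistribMulAction H V]
  [Finite V] [Finite H]

theorem fix_Im_of_comm_two (hB : BinN 2 H V) {r s : H} (hr : r ∈ TT H V) (hs : s ∈ TT H V)
    (hc : r * s = s * r) {x : V} (hx : x ∈ Im V s) : r • x = x := by
  by_cases h : r = s
  · rw [h, hB.TT_smul_Im hs hx, hB.neg_two]
  · exact hB.TT_fix_of_comm hr hs h hc hx

theorem noncomm_of_ne_two (hB : BinN 2 H V) {r s : H} (hr : r ∈ TT H V) (hs : s ∈ TT H V)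
    {x : V} (hx : x ∈ Im V s) (hne : r • x ≠ x) : r * s ≠ s * r :=
  fun hc => hne (hB.fix_Im_of_comm_two hr hs hc hx)

/-- vectors of `Im r ⊔ Im s` not fixed by `t` lie in some `Im r'`, `Im r' ≤ Im r ⊔ Im s`. -/
theorem exists_Im_le_two (hB : BinN 2 H V) {r s t : H} (hr : r ∈ TT H V) (hs : s ∈ TT H V)
    (ht : t ∈ TT H V) (hrs : r ≠ s) (hc : r * s = s * r) (hrt : r * t ≠ t * r)
    (hst : s * t ≠ t * s) {x y : V} (hx : x ∈ Im V r) (hy : y ∈ Im V s)
    (hxy : t • (x + y) ≠ x + y) :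
    ∃ r' ∈ TT H V, x + y ∈ Im V r' ∧ Im V r' ≤ Im V r ⊔ Im V s := by
  by_cases hy0 : y = 0
  · subst hy0
    exact ⟨r, hr, by rwa [add_zero], le_sup_left⟩
  by_cases hx0 : x = 0
  · subst hx0
    exact ⟨s, hs, by rwa [zero_add], le_sup_right⟩
  obtain ⟨c, hc', hc0⟩ := hB.Im_ne_bot ht.1
  have hrt' : r ≠ t := by rintro rfl; exact hrt rfl
  -- `r1`
  have h1 : x + c ≠ 0 := by
    intro h
    have : x = -c := eq_neg_of_add_eq_zero_left h
    apply hx0
    exact hB.TT_disj hr ht hrt' hx (by rw [this]; exact (Im V t).neg_mem hc')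
  obtain ⟨r1, hr1, hr1K, hr1I⟩ := hB.exists_mem_Im hr ht hrt (hB.good_two hr ht hrt)
    (mem_YY.mpr ⟨x, hx, c, hc', rfl⟩) h1
  have hr1Y : Im V r1 ≤ YY V r t := hB.Im_le_YY hr ht hrt (hB.good_two hr ht hrt) hr1K
  have hsx : s • x = x := hB.fix_Im_of_comm_two hs hr hc.symm hx
  have h2 : s • (x + c) ≠ x + c := by
    rw [smul_add, hsx]
    intro h
    exact hc0 (hB.eq_zero_of_noncomm ht hst hc' (add_left_cancel h))
  have h3 : s * r1 ≠ r1 * s := hB.noncomm_of_ne_two hs hr1 hr1I h2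
  have hne1 : r1 ≠ s := by rintro rfl; exact h3 rfl
  have h4 : x + c + y ≠ 0 := by
    intro h
    have : x + c = -y := eq_neg_of_add_eq_zero_left h
    exact h1 (hB.TT_disj hr1 hs hne1 hr1I (by rw [this]; exact (Im V s).neg_mem hy))
  obtain ⟨r2, hr2, hr2K, hr2I⟩ := hB.exists_mem_Im hr1 hs (Ne.symm h3)
    (hB.good_two hr1 hs (Ne.symm h3)) (mem_YY.mpr ⟨x + c, hr1I, y, hy, rfl⟩) h4
  have hr2Y : Im V r2 ≤ YY V r1 s :=
    hB.Im_le_YY hr1 hs (Ne.symm h3) (hB.good_two hr1 hs (Ne.symm h3)) hr2K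
  have htc : t • c = c := by rw [hB.TT_smul_Im ht hc', hB.neg_two]
  have h5 : t • (x + c + y) ≠ x + c + y := by
    intro h
    apply hxy
    have e1 : x + c + y = (x + y) + c := by abel
    rw [e1, smul_add, htc] at h
    exact add_right_cancel h
  have h6 : t * r2 ≠ r2 * t := hB.noncomm_of_ne_two ht hr2 hr2I h5
  have h7 : x + y ≠ 0 := by
    intro h
    rw [h, smul_zero] at hxy
    exact hxy rfl
  have h8 : x + y = (x + c + y) + c := by
    have : (x + c + y) + c = (x + y) + (c + c) := by abel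
    rw [this, hB.add_self_two, add_zero]
  obtain ⟨r3, hr3, hr3K, hr3I⟩ := hB.exists_mem_Im hr2 ht (Ne.symm h6)
    (hB.good_two hr2 ht (Ne.symm h6)) (mem_YY.mpr ⟨x + c + y, hr2I, c, hc', h8.symm⟩) h7
  have hr3Y : Im V r3 ≤ YY V r2 t :=
    hB.Im_le_YY hr2 ht (Ne.symm h6) (hB.good_two hr2 ht (Ne.symm h6)) hr3K
  refine ⟨r3, hr3, hr3I, ?_⟩
  intro b hb
  obtain ⟨b2, hb2, c2, hc2, rfl⟩ := mem_YY.mp (hr3Y hb)
  obtain ⟨b1, hb1, y1, hy1, rfl⟩ := mem_YY.mp (hr2Y hb2)
  obtain ⟨x1, hx1, c1, hc1, rfl⟩ := mem_YY.mp (hr1Y hb1)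
  have hry : ∀ w ∈ Im V s, r • w = w := fun w hw => hB.fix_Im_of_comm_two hr hs hc hw
  have hrx : ∀ w ∈ Im V r, r • w = w := fun w hw => hB.fix_Im_of_comm_two hr hr rfl hw
  have h9 : r • (x + y) = x + y := by rw [smul_add, hrx x hx, hry y hy]
  have h10 : r * r3 = r3 * r := hB.TT_comm_of_fix hr3 h7 hr3I h9
  have h11 := hB.fix_Im_of_comm_two hr hr3 h10 hb
  have h12 : c1 + c2 = 0 := by
    apply hB.eq_zero_of_noncomm ht hrt ((Im V t).add_mem hc1 hc2)
    have e1 : x1 + c1 + y1 + c2 = (x1 + y1) + (c1 + c2) := by abel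
    rw [e1, smul_add, smul_add r x1 y1, hrx x1 hx1, hry y1 hy1] at h11
    exact add_left_cancel h11
  have e1 : x1 + c1 + y1 + c2 = x1 + y1 := by
    have : x1 + c1 + y1 + c2 = (x1 + y1) + (c1 + c2) := by abel
    rw [this, h12, add_zero]
  rw [e1]
  exact AddSubgroup.mem_sup.mpr ⟨x1, hx1, y1, hy1, rfl⟩

/-- no element of `TT` is noncommuting with two distinct commuting ones. -/
theorem no_triangle_two (hB : BinN 2 H V) {r s t : H} (hr : r ∈ TT H V) (hs : s ∈ TT H V)
    (ht : t ∈ TT H V) (hrs : r ≠ s) (hc : r * s = s * r) (hrt : r * t ≠ t * r)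
    (hst : s * t ≠ t * s) : False := by
  classical
  have hq1 : 1 < Nat.card (Im V t) := hB.one_lt_card_Im ht.1
  have cr : Nat.card (Im V r) = Nat.card (Im V t) := hB.card_Im_of_noncomm hr ht hrt
  have cs : Nat.card (Im V s) = Nat.card (Im V t) := hB.card_Im_of_noncomm hs ht hst
  have hrA : ∀ a ∈ Im V r ⊔ Im V s, r • a = a := by
    intro a ha
    obtain ⟨x, hx, y, hy, rfl⟩ := AddSubgroup.mem_sup.mp ha
    rw [smul_add, hB.fix_Im_of_comm_two hr hr rfl hx, hB.fix_Im_of_comm_two hr hs hc hy]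
  have hsA : ∀ a ∈ Im V r ⊔ Im V s, s • a = a := by
    intro a ha
    obtain ⟨x, hx, y, hy, rfl⟩ := AddSubgroup.mem_sup.mp ha
    rw [smul_add, hB.fix_Im_of_comm_two hs hr hc.symm hx, hB.fix_Im_of_comm_two hs hs rfl hy]
  let R : Type _ := {r' : H // r' ∈ TT H V ∧ Im V r' ≤ Im V r ⊔ Im V s ∧ t * r' ≠ r' * t}
  let X : Type _ := {a : Im V r × Im V s // t • ((a.1 : V) + (a.2 : V)) ≠ (a.1 : V) + (a.2 : V)}
  have h1 := card_of_unique (X := X) (R := R) (fun r' a => (a.1.1 : V) + (a.1.2 : V) ∈ Im V r'.1)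
    (by
      rintro ⟨⟨⟨x, hx⟩, ⟨y, hy⟩⟩, hxy⟩
      obtain ⟨r', hr', hI, hle⟩ := hB.exists_Im_le_two hr hs ht hrs hc hrt hst hx hy hxy
      refine ⟨⟨r', hr', hle, hB.noncomm_of_ne_two ht hr' hI hxy⟩, hI, ?_⟩
      rintro ⟨r'', hr'', hle', hn⟩ hI'
      have h0 : x + y ≠ 0 := by
        intro h
        apply hxy
        simp only [h, smul_zero]
      exact Subtype.ext (hB.TT_unique hr'' hr' h0 hI' hI)) (Nat.card (Im V t) - 1) (by
      rintro ⟨r', hr', hle, hn⟩
      have hex : ∀ b : {b : V // b ∈ (Im V r' : Set V) \ {0}},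
          ∃ a : {a : X // (a.1.1 : V) + (a.1.2 : V) ∈ Im V r'}, (a.1.1.1 : V) + (a.1.1.2 : V) = b.1 := by
        rintro ⟨b, hb, hb0⟩
        obtain ⟨x, hx, y, hy, hxy⟩ := AddSubgroup.mem_sup.mp (hle hb)
        refine ⟨⟨⟨⟨⟨x, hx⟩, ⟨y, hy⟩⟩, ?_⟩, ?_⟩, hxy⟩
        · simp only [hxy]
          intro h
          exact hb0 (hB.eq_zero_of_noncomm hr' hn hb h)
        · simp only [hxy]; exact hb
      have e : {a : X // (a.1.1 : V) + (a.1.2 : V) ∈ Im V r'} ≃ {b : V // b ∈ (Im V r' : Set V) \ {0}} := by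
        refine Equiv.ofBijective (fun a => ⟨(a.1.1.1 : V) + (a.1.1.2 : V), a.2, fun h => ?_⟩) ⟨?_, ?_⟩
        · have h' : (a.1.1.1 : V) + (a.1.1.2 : V) = 0 := h
          apply a.1.2
          rw [h', smul_zero]
        · rintro ⟨⟨⟨a, b⟩, h1⟩, h2⟩ ⟨⟨⟨a', b'⟩, h1'⟩, h2'⟩ h
          have h' : (a : V) + (b : V) = (a' : V) + (b' : V) := congrArg Subtype.val h
          have h3 : (a : V) - (a' : V) = (b' : V) - (b : V) := by
            have : (a : V) - (a' : V) = ((a : V) + (b : V)) - (a' : V) - (b : V) := by abel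
            rw [this, h']; abel
          have h4 : (a : V) - (a' : V) = 0 :=
            hB.TT_disj hr hs hrs ((Im V r).sub_mem a.2 a'.2)
              (by rw [h3]; exact (Im V s).sub_mem b'.2 b.2)
          have e1 : a = a' := Subtype.ext (sub_eq_zero.mp h4)
          rw [h4] at h3
          have e2 : b = b' := (Subtype.ext (sub_eq_zero.mp h3.symm)).symm
          subst e1; subst e2; rfl
        · intro b
          obtain ⟨a, ha⟩ := hex b
          exact ⟨a, Subtype.ext ha⟩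
      rw [Nat.card_congr e]
      change Nat.card ↥((Im V r' : Set V) \ {0}) = _
      rw [Nat.card_coe_set_eq, Set.ncard_sdiff (by simp) (Set.toFinite _),
        ← Nat.card_coe_set_eq, Set.ncard_singleton]
      change Nat.card (Im V r') - 1 = _
      rw [hB.card_Im_of_noncomm ht hr' hn])
  -- the size of `X`
  have h2 : Nat.card (Im V t) * Nat.card (Im V t) ≤ Nat.card X + Nat.card (Im V t) := by
    have h3 : Nat.card (Im V r × Im V s) = Nat.card {a : Im V r × Im V s //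
        t • ((a.1 : V) + (a.2 : V)) = (a.1 : V) + (a.2 : V)} + Nat.card X := by
      rw [← Nat.card_sum]
      exact Nat.card_congr (Equiv.sumCompl _).symm
    rw [Nat.card_prod, cr, cs] at h3
    have h4 : Nat.card {a : Im V r × Im V s //
        t • ((a.1 : V) + (a.2 : V)) = (a.1 : V) + (a.2 : V)} ≤ Nat.card (Im V s) := by
      refine Nat.card_le_card_of_injective (fun a => a.1.2) ?_
      rintro ⟨⟨a, b⟩, h1⟩ ⟨⟨a', b'⟩, h1'⟩ h
      simp only at h
      subst h
      simp only at h1 h1'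
      have h5 : t • ((a : V) - (a' : V)) = (a : V) - (a' : V) := by
        have : (a : V) - (a' : V) = ((a : V) + (b : V)) - ((a' : V) + (b : V)) := by abel
        rw [this, smul_sub, h1, h1']
      have h6 : (a : V) - (a' : V) ∈ Im V r := (Im V r).sub_mem a.2 a'.2
      have h7 := hB.eq_zero_of_noncomm hr (Ne.symm hrt) h6 h5
      have e1 : a = a' := Subtype.ext (sub_eq_zero.mp h7)
      subst e1; rfl
    rw [cs] at h4
    omega
  -- the injection
  obtain ⟨v, hv, hv0⟩ := hB.Im_ne_bot ht.1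
  have hfixA : ∀ r' : R, ∀ a ∈ Im V r ⊔ Im V s, r'.1 • a = a := by
    rintro ⟨r', hr', hle, hn⟩ a ha
    obtain ⟨w, hw, hw0⟩ := hB.Im_ne_bot hr'.1
    have e1 : r * r' = r' * r := hB.TT_comm_of_fix hr' hw0 hw (hrA w (hle hw))
    have e2 : s * r' = r' * s := hB.TT_comm_of_fix hr' hw0 hw (hsA w (hle hw))
    obtain ⟨x, hx, y, hy, rfl⟩ := AddSubgroup.mem_sup.mp ha
    rw [smul_add, hB.fix_Im_of_comm_two hr' hr e1.symm hx,
      hB.fix_Im_of_comm_two hr' hs e2.symm hy]
  have h3 : Nat.card R ≤ Nat.card ↥((Im V t : Set V) \ {0}) := by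
    refine Nat.card_le_card_of_injective (fun r' : R =>
      (⟨t • (r'.1 • v - v) - (r'.1 • v - v), sub_mem_Im t _, ?_⟩ : ↥((Im V t : Set V) \ {0}))) ?_
    · intro h
      have h' : t • (r'.1 • v - v) - (r'.1 • v - v) = 0 := h
      have h4 := hB.eq_zero_of_noncomm r'.2.1 r'.2.2.2 (sub_mem_Im r'.1 v) (sub_eq_zero.mp h')
      exact hv0 (hB.eq_zero_of_noncomm ht (Ne.symm r'.2.2.2) hv (sub_eq_zero.mp h4))
    · intro a b hab
      have hab' : t • (a.1 • v - v) - (a.1 • v - v) = t • (b.1 • v - v) - (b.1 • v - v) :=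
        congrArg Subtype.val hab
      by_contra hne
      have hne' : a.1 ≠ b.1 := fun h => hne (Subtype.ext h)
      set a' := a.1 • v - v with ha'
      set b' := b.1 • v - v with hb'
      have ha'A : a' ∈ Im V r ⊔ Im V s := a.2.2.1 (sub_mem_Im a.1 v)
      have hb'A : b' ∈ Im V r ⊔ Im V s := b.2.2.1 (sub_mem_Im b.1 v)
      have hz1 : t • (a' - b') = a' - b' := by
        rw [smul_sub]
        have : t • a' - t • b' = (t • a' - a') - (t • b' - b') + (a' - b') := by abel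
        rw [this, hab', sub_self, zero_add]
      have hz2 : r • (a' - b') = a' - b' := by rw [smul_sub, hrA a' ha'A, hrA b' hb'A]
      have hz0 : a' - b' ≠ 0 := by
        intro h
        have h4 : a' = 0 := hB.TT_disj a.2.1 b.2.1 hne' (sub_mem_Im a.1 v)
          (by rw [sub_eq_zero.mp h]; exact sub_mem_Im b.1 v)
        exact hv0 (hB.eq_zero_of_noncomm ht (Ne.symm a.2.2.2) hv (sub_eq_zero.mp h4))
      refine hB.not_cj_add hr ht hrt (hB.good_two hr ht hrt) (y := v) (z := a' - b')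
        (mem_YY.mpr ⟨0, (Im V r).zero_mem, v, hv, zero_add v⟩) ⟨mem_U.mpr hz2, mem_U.mpr hz1⟩ hz0 ?_
      refine ⟨a.1 * b.1, ?_⟩
      have e1 : b.1 • v = v + b' := by rw [hb']; abel
      have e2 : a.1 • v = v + a' := by rw [ha']; abel
      rw [mul_smul, e1, smul_add, hfixA a b' hb'A, e2]
      have : a' - b' = a' + b' := by rw [sub_eq_add_neg, hB.neg_two]
      rw [this]; abel
  rw [Nat.card_coe_set_eq, Set.ncard_sdiff (by simp) (Set.toFinite _),
        ← Nat.card_coe_set_eq, Set.ncard_singleton] at h3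
  change Nat.card R ≤ Nat.card (Im V t) - 1 at h3
  rw [h1] at h2
  obtain ⟨m, hm⟩ : ∃ m, Nat.card (Im V t) = m + 1 := ⟨Nat.card (Im V t) - 1, by omega⟩
  rw [hm] at h2 h3 hq1
  simp only [Nat.add_sub_cancel] at h2 h3
  have : Nat.card R * m ≤ m * m := Nat.mul_le_mul_right _ h3
  nlinarith

theorem comm_of_not_mem_KK_two (hB : BinN 2 H V) {s t r : H} (hs : s ∈ TT H V) (ht : t ∈ TT H V)
    (hst : s * t ≠ t * s) (hr : r ∈ TT H V) (hrK : r ∉ KK V s t) : r * s = s * r := by
  by_contra hno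
  have hG := hB.good_two hs ht hst
  obtain ⟨a, ha, ha0⟩ := hB.Im_ne_bot hr.1
  obtain ⟨y, hy, z, hz, hyz⟩ := hB.exists_decomp hs ht hst a
  have hsa : s • a ≠ a := fun h => ha0 (hB.eq_zero_of_noncomm hr (Ne.symm hno) ha h)
  have hy0 : y ≠ 0 := by
    rintro rfl
    apply hsa
    rw [hyz, zero_add]
    exact mem_U.mp hz.1
  have hyZ : y ∉ ZZ V s t := fun h => hy0 (hB.YY_inf_ZZ hs ht hst hy h)
  obtain ⟨r1, hr1, hr1K, hr1y⟩ := hG.hC 1 (KK V s t).one_mem y hyZ
  rw [one_smul] at hr1y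
  have h1 : r1 • a = a := by rw [hyz, smul_add, hr1y, hr1K z hz]
  have h2 : r1 * r = r * r1 := hB.TT_comm_of_fix hr ha0 ha h1
  have h3 : r1 ≠ r := by rintro rfl; exact hrK hr1K
  have h4 : s * r1 ≠ r1 * s := by
    intro hc
    -- then `s` fixes `y`
    obtain ⟨w, hw, hw0⟩ := hB.Im_ne_bot hr1.1
    have hwZ : w ∉ ZZ V s t := fun h => hw0 (hB.Im_inf_ZZ hs ht hst hr1 hr1K hw h)
    have e1 : s = r1 := hG.hU s hs (left_mem_KK s t) r1 hr1 hr1K w hwZ
      (hB.fix_Im_of_comm_two hs hr1 hc hw) (hB.fix_Im_of_comm_two hr1 hr1 rfl hw)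
    apply hsa
    rw [e1]; exact h1
  exact hB.no_triangle_two hr1 hr hs h3 h2 (Ne.symm h4) hno

/-- every conjugate of `s` lies in `K`. -/
theorem conj_mem_KK_two (hB : BinN 2 H V) {s t : H} (hs : s ∈ TT H V) (ht : t ∈ TT H V)
    (hst : s * t ≠ t * s) (h : H) : h * s * h⁻¹ ∈ KK V s t := by
  by_contra hno
  set s' := h * s * h⁻¹ with hs'
  have hs'T : s' ∈ TT H V := TT_conj hs h
  have c1 : s' * s = s * s' := hB.comm_of_not_mem_KK_two hs ht hst hs'T hno
  have c2 : s' * t = t * s' := by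
    refine hB.comm_of_not_mem_KK_two ht hs (Ne.symm hst) hs'T ?_
    rwa [KK_comm]
  have hne : s' ≠ s := by rintro h; rw [h] at hno; exact hno (left_mem_KK s t)
  obtain ⟨v, hv, hv0⟩ := hB.Im_ne_bot hs.1
  have hv' : h • v ∈ Im V s' := conj_mem_Im hv
  set v' := h • v with hv'def
  obtain ⟨τ, hτ, hτv⟩ := hB.exists_inv (v + v')
  have e1 : v + (v + v') = v' := by rw [← add_assoc, hB.add_self_two, zero_add]
  have t1 : τ • v = v' := by
    have := (hτv v).mp (by rw [e1]; exact ⟨h, rfl⟩)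
    rwa [e1] at this
  have t2 : τ • v' = v := by rw [← t1, ← mul_smul, hτ, one_smul]
  have hv'0 : v' ≠ 0 := by
    rw [hv'def]; exact (smul_ne_zero_iff_ne _).mpr hv0
  have hτs : τ * s * τ⁻¹ = s' := by
    refine hB.TT_unique (TT_conj hs τ) hs'T hv'0 ?_ hv'
    have := conj_mem_Im (k := τ) hv
    rwa [t1] at this
  obtain ⟨a, ha, hsa⟩ := hB.exists_sub_of_noncomm hs ht hst hv
  set a' := τ • a with ha'
  have hs'a' : s' • a' = a' + v' := by
    rw [← hτs, mul_smul, mul_smul, ha', inv_smul_smul, hsa, smul_add, t1]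
  set t' := τ * t * τ⁻¹ with ht'
  have ht'T : t' ∈ TT H V := TT_conj ht τ
  have ha'I : a' ∈ Im V t' := conj_mem_Im ha
  have hs't' : s' * t' ≠ t' * s' := by
    intro hc
    apply hst
    have e2 : s' * t' = τ * (s * t) * τ⁻¹ := by rw [← hτs, ht']; group
    have e3 : t' * s' = τ * (t * s) * τ⁻¹ := by rw [← hτs, ht']; group
    rw [e2, e3] at hc
    exact mul_left_cancel (mul_right_cancel hc)
  have c3 : s * t' = t' * s := by
    by_contra hn
    exact hB.no_triangle_two hs'T hs ht'T hne c1 hs't' hn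
  have f1 : s • a' = a' := hB.fix_Im_of_comm_two hs ht'T c3 ha'I
  have f2 : s • v' = v' := hB.fix_Im_of_comm_two hs hs'T c1.symm hv'
  have f3 : s' • a = a := hB.fix_Im_of_comm_two hs'T ht c2 ha
  have f4 : s' • v = v := hB.fix_Im_of_comm_two hs'T hs c1 hv
  have key : Cj H (a + a') (a + a' + (v + v')) := by
    refine ⟨s * s', ?_⟩
    rw [mul_smul, smul_add, f3, hs'a', smul_add, smul_add, hsa, f1, f2]
    abel
  have k1 := (hτv _).mp key
  have k2 : τ • (a + a') = a + a' := by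
    rw [smul_add, ← ha', ha', ← mul_smul τ τ a, hτ, one_smul]; abel
  rw [k2] at k1
  have k3 : v + v' = 0 := by simpa using k1
  have k4 : v = v' := by
    have := eq_neg_of_add_eq_zero_left k3
    rwa [hB.neg_two] at this
  exact hv0 (hB.TT_disj hs'T hs hne (by rw [k4]; exact hv') hv)

theorem YY_eq_top_of_conj {p : ℕ} (hB : BinN p H V) {s t : H} (hs : s ∈ TT H V) (ht : t ∈ TT H V)
    (hst : s * t ≠ t * s) (hG : Good V s t) (hc : ∀ h : H, h * s * h⁻¹ ∈ KK V s t) :
    YY V s t = ⊤ := by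
  let M : AddSubgroup V := AddSubgroup.closure {x | ∃ h : H, x ∈ Im V (h * s * h⁻¹)}
  have hM : M = ⊤ := by
    rcases hB.irr M (by
      intro h m hm
      induction hm using AddSubgroup.closure_induction with
      | mem x hx =>
        obtain ⟨k, hk⟩ := hx
        apply AddSubgroup.subset_closure
        refine ⟨h * k, ?_⟩
        have := conj_mem_Im (k := h) hk
        convert this using 2
        group
      | zero => rw [smul_zero]; exact M.zero_mem
      | add x y _ _ hx hy => rw [smul_add]; exact M.add_mem hx hy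
      | neg x _ hx => rw [smul_neg]; exact M.neg_mem hx) with h | h
    · exfalso
      obtain ⟨w, hw, hw0⟩ := hB.Im_ne_bot hs.1
      have : w ∈ M := AddSubgroup.subset_closure ⟨1, by simpa using hw⟩
      rw [h, AddSubgroup.mem_bot] at this
      exact hw0 this
    · exact h
  rw [eq_top_iff, ← hM, AddSubgroup.closure_le]
  rintro x ⟨h, hx⟩
  exact hB.Im_le_YY hs ht hst hG (hc h) hx

/-- **The case `p = 2`.** -/
theorem exists_pair_two (hB : BinN 2 H V) (hne : ∃ g : H, g ≠ 1) :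
    ∃ s ∈ TT H V, ∃ t ∈ TT H V, s * t ≠ t * s ∧ YY V s t = ⊤ := by
  obtain ⟨g, hg⟩ := hne
  obtain ⟨s, hs, _⟩ := exists_TT_ge (V := V) g hg
  have : ∃ t ∈ TT H V, s * t ≠ t * s := by
    by_contra hno
    push Not at hno
    -- `s` fixes everything
    let M : AddSubgroup V := AddSubgroup.closure {x | ∃ h : H, x ∈ Im V (h * s * h⁻¹)}
    have hM : M = ⊤ := by
      rcases hB.irr M (by
        intro h m hm
        induction hm using AddSubgroup.closure_induction with
        | mem x hx =>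
          obtain ⟨k, hk⟩ := hx
          apply AddSubgroup.subset_closure
          refine ⟨h * k, ?_⟩
          have := conj_mem_Im (k := h) hk
          convert this using 2
          group
        | zero => rw [smul_zero]; exact M.zero_mem
        | add x y _ _ hx hy => rw [smul_add]; exact M.add_mem hx hy
        | neg x _ hx => rw [smul_neg]; exact M.neg_mem hx) with h | h
      · exfalso
        obtain ⟨w, hw, hw0⟩ := hB.Im_ne_bot hs.1
        have : w ∈ M := AddSubgroup.subset_closure ⟨1, by simpa using hw⟩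
        rw [h, AddSubgroup.mem_bot] at this
        exact hw0 this
      · exact h
    have h1 : M ≤ U V s := by
      rw [AddSubgroup.closure_le]
      rintro x ⟨h, hx⟩
      exact mem_U.mpr (hB.fix_Im_of_comm_two hs (TT_conj hs h) (hno _ (TT_conj hs h)) hx)
    apply hs.1
    apply hB.faith
    intro v
    exact mem_U.mp (h1 (by rw [hM]; trivial))
  obtain ⟨t, ht, hst⟩ := this
  exact ⟨s, hs, t, ht, hst, hB.YY_eq_top_of_conj hs ht hst (hB.good_two hs ht hst)
    (hB.conj_mem_KK_two hs ht hst)⟩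

end BinN

end Cfsg.Agent.H900.BinLin
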