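import Mathlib
import Cfsg.Agent.H900.BinLin.Cover

/-!
# The case `p` odd: a noncommuting pair is good
-/

set_option autoImplicit false
set_option linter.unusedSectionVars false
set_option linter.unusedVariables false

namespace Cfsg.Agent.H900.BinLin

namespace BinN

variable {p : ℕ} {H V : Type*} [Group H] [AddCommGroup V] [DistribMulAction H V]
  [Finite V] [Finite H]

theorem perp_of_fix_Im (hB : BinN p H V) (hp : p ≠ 2) {g : H} {c w : V} (hc : g • c = c)
    (hw : w ∈ Im V g) : Perp H c w := by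
  obtain ⟨t, _, h1, h2, _⟩ := hB.exists_perp_inv hp w
  rw [h2]
  exact mem_U.mp (U_le_of_trans hw (fun v hv => (h1 v).mp hv) (mem_U.mpr hc))

theorem neg_hf_add (hB : BinN p H V) (hp : p ≠ 2) (y : V) : -hf p y + y = hf p y := by
  nth_rewrite 2 [← hB.hf_add hp y]
  abel

theorem mem_Im_of_neg (hB : BinN p H V) (hp : p ≠ 2) {g : H} {y : V} (h : g • y = -y) :
    y ∈ Im V g := by
  refine mem_Im.mpr ⟨-hf p y, ?_⟩
  rw [hB.neg_hf_add hp, smul_neg, hf, smul_comm, h, smul_neg, neg_neg]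

theorem perp_YZ (hB : BinN p H V) (hp : p ≠ 2) {s t : H} (hs : s ∈ TT H V) (ht : t ∈ TT H V)
    {y z : V} (hy : y ∈ YY V s t) (hz : z ∈ ZZ V s t) : Perp H y z := by
  obtain ⟨a, ha, b, hb, rfl⟩ := mem_YY.mp hy
  exact hB.perp_add hp (perp_of_fix_neg hB (hB.TT_smul_Im hs ha) (mem_U.mp hz.1))
    (perp_of_fix_neg hB (hB.TT_smul_Im ht hb) (mem_U.mp hz.2))

theorem sub_mem_YY_odd (hB : BinN p H V) (hp : p ≠ 2) {s t : H} (hs : s ∈ TT H V)
    (ht : t ∈ TT H V) (hst : s * t ≠ t * s) {g : H} (hg : g ∈ KK V s t) {w : V}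
    (hw : w ∈ Im V g) : w ∈ YY V s t := by
  obtain ⟨y, hy, z, hz, rfl⟩ := hB.exists_decomp hs ht hst w
  have h1 : Perp H z (y + z) := hB.perp_of_fix_Im hp (hg z hz) hw
  have h2 := hB.perp_symm h1
  have h3 : Perp H z z := by
    have h4 := hB.perp_add hp h2 (hB.perp_neg hp (hB.perp_YZ hp hs ht hy hz))
    have : y + z + -y = z := by abel
    rwa [this] at h4
  rw [hB.perp_self hp h3, add_zero]
  exact hy

theorem smul_mem_YY_odd (hB : BinN p H V) (hp : p ≠ 2) {s t : H} (hs : s ∈ TT H V)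
    (ht : t ∈ TT H V) (hst : s * t ≠ t * s) {g : H} (hg : g ∈ KK V s t) {y : V}
    (hy : y ∈ YY V s t) : g • y ∈ YY V s t := by
  have h1 := hB.sub_mem_YY_odd hp hs ht hst hg (sub_mem_Im g y)
  have : g • y = (g • y - y) + y := by abel
  rw [this]
  exact (YY V s t).add_mem h1 hy

theorem exists_e (hB : BinN p H V) (hp : p ≠ 2) {s t : H} (hs : s ∈ TT H V) (ht : t ∈ TT H V)
    (hst : s * t ≠ t * s) : ∃ e ∈ KK V s t, (∀ y ∈ YY V s t, e • y = -y) := by
  have h0 : ∀ y ∈ YY V s t, ∀ z ∈ ZZ V s t, Cj H (y + z) (-y + z) := by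
    intro y hy z hz
    have h1 := (hB.perp_YZ hp hs ht hy hz).trans (hB.cj_neg _)
    convert h1 using 1
    abel
  obtain ⟨e, he⟩ := hB.bin' (ι := YY V s t × ZZ V s t) (fun x => (x.1 : V) + (x.2 : V))
    (fun x => -(x.1 : V) + (x.2 : V)) (fun x => h0 _ x.1.2 _ x.2.2) (by
      intro x x'
      have h1 := h0 _ ((YY V s t).sub_mem x.1.2 x'.1.2) _ ((ZZ V s t).sub_mem x.2.2 x'.2.2)
      convert h1 using 1 <;> abel)
  refine ⟨e, ?_, ?_⟩
  · intro z hz
    have := he (0, ⟨z, hz⟩)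
    simpa using this
  · intro y hy
    have := he (⟨y, hy⟩, 0)
    simpa using this

section withE

variable {s t e : H}

theorem e_sq (hB : BinN p H V) (hs : s ∈ TT H V) (ht : t ∈ TT H V)
    (hst : s * t ≠ t * s) (he : e ∈ KK V s t) (heY : ∀ y ∈ YY V s t, e • y = -y) : e * e = 1 := by
  apply hB.faith
  intro v
  obtain ⟨y, hy, z, hz, rfl⟩ := hB.exists_decomp hs ht hst v
  rw [mul_smul, smul_add, smul_add, he z hz, he z hz, heY y hy, smul_neg, heY y hy, neg_neg]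

theorem e_comm (hB : BinN p H V) (hp : p ≠ 2) (hs : s ∈ TT H V) (ht : t ∈ TT H V)
    (hst : s * t ≠ t * s) (he : e ∈ KK V s t) (heY : ∀ y ∈ YY V s t, e • y = -y) {k : H}
    (hk : k ∈ KK V s t) : e * k = k * e := by
  have : (e * k)⁻¹ * (k * e) = 1 := by
    apply hB.faith
    intro v
    rw [mul_smul, inv_smul_eq_iff]
    obtain ⟨y, hy, z, hz, rfl⟩ := hB.exists_decomp hs ht hst v
    rw [mul_smul, mul_smul, smul_add, smul_add, smul_add, smul_add, he z hz, hk z hz, he z hz,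
      heY y hy, heY _ (hB.smul_mem_YY_odd hp hs ht hst hk hy), smul_neg]
  have h2 := eq_of_inv_mul_eq_one this
  exact h2

theorem er_mem (hB : BinN p H V) (hp : p ≠ 2) (hs : s ∈ TT H V) (ht : t ∈ TT H V)
    (hst : s * t ≠ t * s) (he : e ∈ KK V s t) (heY : ∀ y ∈ YY V s t, e • y = -y) {r : H}
    (hr : r ∈ TT H V) (hrK : r ∈ KK V s t) : e * r ∈ TT H V ∧ e * r ∈ KK V s t := by
  have herK : e * r ∈ KK V s t := (KK V s t).mul_mem he hrK
  refine ⟨?_, herK⟩
  have hrY : Im V r ≤ YY V s t := fun w hw => hB.sub_mem_YY_odd hp hs ht hst hrK hw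
  have hne : e * r ≠ 1 := by
    intro h
    have h1 : e = r := by
      have := eq_inv_of_mul_eq_one_left h
      rwa [hB.TT_inv hr] at this
    subst h1
    exact hB.not_comm_both hs ht hst hr hrK
      (hB.e_comm hp hs ht hst he heY (left_mem_KK s t))
      (hB.e_comm hp hs ht hst he heY (right_mem_KK s t))
  obtain ⟨r'', hr'', hle⟩ := exists_TT_ge (V := V) (e * r) hne
  have hr''K : r'' ∈ KK V s t := mem_KK_iff_le.mpr ((mem_KK_iff_le.mp herK).trans hle)
  have h1 : Im V r ⊔ ZZ V s t ≤ U V (e * r) := by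
    refine sup_le ?_ (mem_KK_iff_le.mp herK)
    intro w hw
    rw [mem_U, mul_smul, hB.TT_smul_Im hr hw, smul_neg, heY w (hrY hw), neg_neg]
  have h2 : Nat.card (U V r'') ≤ Nat.card (Im V r ⊔ ZZ V s t : AddSubgroup V) := by
    rw [hB.card_U_K hs ht hst hr'' hr''K, ← hB.card_Im_K hs ht hst hr hrK, ← Nat.card_prod]
    refine Nat.card_le_card_of_injective (fun x : Im V r × ZZ V s t =>
      (⟨(x.1 : V) + (x.2 : V), AddSubgroup.mem_sup.mpr ⟨_, x.1.2, _, x.2.2, rfl⟩⟩ :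
        (Im V r ⊔ ZZ V s t : AddSubgroup V))) ?_
    rintro ⟨a, z⟩ ⟨a', z'⟩ h
    have h' : (a : V) + (z : V) = (a' : V) + (z' : V) := congrArg Subtype.val h
    have h1 : (a : V) - (a' : V) = (z' : V) - (z : V) := by
      have : (a : V) - (a' : V) = ((a : V) + (z : V)) - (a' : V) - (z : V) := by abel
      rw [this, h']; abel
    have h2 : (a : V) - (a' : V) = 0 := by
      refine hB.Im_inf_ZZ hs ht hst hr hrK ((Im V r).sub_mem a.2 a'.2) ?_
      rw [h1]; exact (ZZ V s t).sub_mem z'.2 z.2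
    have e1 : a = a' := Subtype.ext (sub_eq_zero.mp h2)
    rw [h2] at h1
    have e3 : z = z' := (Subtype.ext (sub_eq_zero.mp h1.symm)).symm
    rw [e1, e3]
  have h3 : U V r'' ≤ U V (e * r) := by
    have h4 : (Im V r ⊔ ZZ V s t : AddSubgroup V) = U V r'' := by
      apply SetLike.coe_injective
      apply Set.eq_of_subset_of_ncard_le (h1.trans hle) _ (Set.toFinite _)
      rw [← Nat.card_coe_set_eq, ← Nat.card_coe_set_eq]
      exact h2
    rw [← h4]; exact h1
  exact (TT_of_U_le hr'' hne h3).1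

theorem mem_Im_er (hB : BinN p H V) (hp : p ≠ 2) (heY : ∀ y ∈ YY V s t, e • y = -y) {r : H}
    {y : V} (hy : y ∈ YY V s t) (h : r • y = y) : y ∈ Im V (e * r) := by
  apply hB.mem_Im_of_neg hp
  rw [mul_smul, h, heY y hy]

/-- the trichotomy for `w ∈ Y`. -/
theorem B_odd (hB : BinN p H V) (hp : p ≠ 2) (hs : s ∈ TT H V) (ht : t ∈ TT H V)
    (hst : s * t ≠ t * s) (he : e ∈ KK V s t) (heY : ∀ y ∈ YY V s t, e • y = -y) {w : V}
    (hw : w ∈ YY V s t) (hw0 : w ≠ 0) :
    (∃ r ∈ TT H V, r ∈ KK V s t ∧ w ∈ Im V r) ∨ (∀ v : V, Cj H v (v + w) → e • v = v + w) := by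
  obtain ⟨τ, hτ, hτv, hτp, hτw⟩ := hB.exists_perp_inv hp w
  have hτK : τ ∈ KK V s t := by
    intro z hz
    rw [← hτp]
    exact hB.perp_symm (hB.perp_YZ hp hs ht hw hz)
  have hτ1 : τ ≠ 1 := by
    rintro rfl
    rw [one_smul] at hτw
    apply hw0
    apply hB.two_nsmul_eq_zero hp
    nth_rewrite 1 [hτw]
    abel
  obtain ⟨r, hr, hle⟩ := exists_TT_ge (V := V) τ hτ1
  have hrK : r ∈ KK V s t := mem_KK_iff_le.mpr ((mem_KK_iff_le.mp hτK).trans hle)
  obtain ⟨her, herK⟩ := hB.er_mem hp hs ht hst he heY hr hrK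
  by_cases hex : ∃ w' ∈ YY V s t, τ • w' = w' ∧ w' ≠ 0
  · left
    obtain ⟨w', hw'Y, hw'τ, hw'0⟩ := hex
    have hrw' : r • w' = w' := mem_U.mp (hle (mem_U.mpr hw'τ))
    have hw'I : w' ∈ Im V (e * r) := hB.mem_Im_er hp heY hw'Y hrw'
    have h1 : Perp H w w' := hB.perp_symm ((hτp w').mpr hw'τ)
    obtain ⟨τ', _, hτ'v, hτ'p, _⟩ := hB.exists_perp_inv hp w'
    have h2 := hB.TT_eq her hw'0 hw'I hτ'v
    have h3 : (e * r) • w = w := by
      rw [h2]; exact (hτ'p w).mp h1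
    refine ⟨r, hr, hrK, hB.mem_Im_of_neg hp ?_⟩
    rw [mul_smul, heY _ (hB.smul_mem_YY_odd hp hs ht hst hrK hw)] at h3
    exact neg_eq_iff_eq_neg.mp h3
  · right
    push Not at hex
    have h1 : ∀ y ∈ YY V s t, τ • y = -y := by
      intro y hy
      have h2 : τ • (y + τ • y) = y + τ • y := by
        rw [smul_add, ← mul_smul, hτ, one_smul]; abel
      have h3 := hex (y + τ • y)
        ((YY V s t).add_mem hy (hB.smul_mem_YY_odd hp hs ht hst hτK hy)) h2
      exact (neg_eq_of_add_eq_zero_right h3).symm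
    have h2 : ∀ v : V, e • v = τ • v := by
      intro v
      obtain ⟨y, hy, z, hz, rfl⟩ := hB.exists_decomp hs ht hst v
      rw [smul_add, smul_add, he z hz, hτK z hz, heY y hy, h1 y hy]
    intro v hv
    rw [h2]
    exact (hτv v).mp hv

end withE

theorem good_odd (hB : BinN p H V) (hp : p ≠ 2) {s t : H} (hs : s ∈ TT H V) (ht : t ∈ TT H V)
    (hst : s * t ≠ t * s) : Good V s t := by
  obtain ⟨e, he, heY⟩ := hB.exists_e hp hs ht hst
  have hUe : U V e ≤ ZZ V s t := by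
    intro v hv
    rw [mem_U] at hv
    obtain ⟨y, hy, z, hz, rfl⟩ := hB.exists_decomp hs ht hst v
    rw [smul_add, he z hz, heY y hy] at hv
    have h1 : -y = y := add_right_cancel hv
    have h2 : y = 0 := by
      apply hB.two_nsmul_eq_zero hp
      nth_rewrite 1 [← h1]
      abel
    rw [h2, zero_add]
    exact hz
  have hPB : PropB V s t := by
    intro g hg w hw hw0
    have hwY := hB.sub_mem_YY_odd hp hs ht hst hg hw
    rcases hB.B_odd hp hs ht hst he heY hwY hw0 with ⟨r, hr, hrK, hwr⟩ | h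
    · exact ⟨r, hrK, hB.TT_sq hr, Or.inl hr, fun v hv => (hB.TT_iff hr hw0 hwr v).mp hv⟩
    · exact ⟨e, he, hB.e_sq hs ht hst he heY, Or.inr hUe, h⟩
  have hPU : PropU V s t := by
    intro r hr hrK r' hr' hrK' x hx hrx hrx'
    obtain ⟨y, hy, z, hz, rfl⟩ := hB.exists_decomp hs ht hst x
    have hy0 : y ≠ 0 := by
      rintro rfl
      rw [zero_add] at hx
      exact hx hz
    rw [smul_add, hrK z hz] at hrx
    rw [smul_add, hrK' z hz] at hrx'
    have h1 := hB.mem_Im_er hp heY hy (add_right_cancel hrx)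
    have h2 := hB.mem_Im_er hp heY hy (add_right_cancel hrx')
    have h3 := hB.TT_unique (hB.er_mem hp hs ht hst he heY hr hrK).1
      (hB.er_mem hp hs ht hst he heY hr' hrK').1 hy0 h1 h2
    exact mul_left_cancel h3
  refine ⟨hPU, ?_, fun r hr hrK x hx hrx k hk hkx =>
    hB.stab_of_B hs ht hst hPB hPU hr hrK hx hrx hk hkx⟩
  intro k hk x hx
  by_cases hkx : k • x = x
  · rw [hkx]
    exact hB.exists_fix_of_B hs ht hst hPB hx
  · have hw0 : k • x - x ≠ 0 := fun h => hkx (sub_eq_zero.mp h)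
    have hwY := hB.sub_mem_YY_odd hp hs ht hst hk (sub_mem_Im k x)
    have hCj : Cj H x (x + (k • x - x)) := ⟨k, by abel⟩
    rcases hB.B_odd hp hs ht hst he heY hwY hw0 with ⟨r, hr, hrK, hwr⟩ | h
    · refine ⟨r, hr, hrK, ?_⟩
      have := (hB.TT_iff hr hw0 hwr x).mp hCj
      rw [this]; abel
    · -- `k x = e x`; take `r` fixing `x`
      obtain ⟨r, hr, hrK, hrx⟩ := hB.exists_fix_of_B hs ht hst hPB hx
      obtain ⟨h1, h2⟩ := hB.er_mem hp hs ht hst he heY hr hrK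
      refine ⟨e * r, h1, h2, ?_⟩
      rw [mul_smul, hrx, h x hCj]
      abel

end BinN

end Cfsg.Agent.H900.BinLin
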