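import Mathlib
import Cfsg.Agent.H900.BinLin.Odd
import Cfsg.Agent.H900.BinLin.EndTwo

/-!
# Endgame for odd `p`
-/

set_option autoImplicit false
set_option linter.unusedSectionVars false
set_option linter.unusedVariables false

namespace Cfsg.Agent.H900.BinLin

namespace BinN

variable {p : ℕ} {H V : Type*} [Group H] [AddCommGroup V] [DistribMulAction H V]
  [Finite V] [Finite H]

theorem neg_ne_self (hB : BinN p H V) (hp : p ≠ 2) {v : V} (hv : v ≠ 0) : -v ≠ v := by
  intro h
  apply hv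
  apply hB.two_nsmul_eq_zero hp
  nth_rewrite 1 [← h]
  abel

/-- no plane of order three: counting. -/
theorem no_cube (hB : BinN p H V) (hp : p ≠ 2) (X : AddSubgroup V) (q : ℕ) (hq : 1 < q)
    (hXc : Nat.card X = q * (q * q))
    (hX : ∀ x ∈ X, x ≠ 0 → ∃ r ∈ TT H V, x ∈ Im V r ∧ Im V r ≤ X ∧ Nat.card (Im V r) = q) :
    False := by
  classical
  let R := {r : H // r ∈ TT H V ∧ Im V r ≤ X ∧ Nat.card (Im V r) = q}
  let X' := {x : V // x ∈ X ∧ x ≠ 0}
  -- card of `X'`
  have cX : Nat.card X' + 1 = q * (q * q) := by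
    have h1 : Nat.card X' = ((X : Set V) \ {0}).ncard := by
      rw [← Nat.card_coe_set_eq]; rfl
    rw [h1, Set.ncard_sdiff_singleton_add_one (X.zero_mem) (Set.toFinite _), ← Nat.card_coe_set_eq]
    exact hXc
  -- card of `Im r \ 0`
  have cI : ∀ r : R, Nat.card {x : X' // x.1 ∈ Im V r.1} = q - 1 := by
    rintro ⟨r, hr, hle, hc⟩
    have h1 : Nat.card {x : X' // x.1 ∈ Im V r} = ((Im V r : Set V) \ {0}).ncard := by
      rw [← Nat.card_coe_set_eq]
      refine Nat.card_congr ⟨fun x => ⟨x.1.1, x.2, x.1.2.2⟩, fun x => ⟨⟨x.1, hle x.2.1, x.2.2⟩, x.2.1⟩,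
        fun x => rfl, fun x => rfl⟩
    rw [h1, Set.ncard_sdiff (by simp) (Set.toFinite _), ← Nat.card_coe_set_eq,
      Set.ncard_singleton]
    change Nat.card (Im V r) - 1 = _
    rw [hc]
  have cR : Nat.card X' = Nat.card R * (q - 1) := by
    refine card_of_unique (fun (r : R) (x : X') => x.1 ∈ Im V r.1) ?_ _ cI
    rintro ⟨x, hx, hx0⟩
    obtain ⟨r, hr, hxr, hle, hc⟩ := hX x hx hx0
    refine ⟨⟨r, hr, hle, hc⟩, hxr, ?_⟩
    rintro ⟨r', hr', hle', hc'⟩ hx'
    exact Subtype.ext (hB.TT_unique hr' hr hx0 hx' hxr)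
  -- the elements of `R` fixing `x`
  have cF : ∀ x ∈ X, x ≠ 0 → Nat.card {r : R // r.1 • x = x} * (q - 1) + 1 = q * q := by
    intro x hx hx0
    obtain ⟨r0, hr0, hxr0, hle0, hc0⟩ := hX x hx hx0
    -- `|U r0 ⊓ X| = q²`
    let W : AddSubgroup V := U V r0 ⊓ X
    have cW : Nat.card W = q * q := by
      have hbij : Function.Bijective (fun z : Im V r0 × W => (⟨z.1.1 + z.2.1,
          X.add_mem (hle0 z.1.2) z.2.2.2⟩ : X)) := by
        constructor
        · rintro ⟨a, u⟩ ⟨a', u'⟩ h
          have h1 : (a : V) + u = a' + u' := congrArg Subtype.val h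
          have h2 : r0 • ((a : V) + u) = r0 • ((a' : V) + u') := by rw [h1]
          rw [smul_add, smul_add, hB.TT_smul_Im hr0 a.2, hB.TT_smul_Im hr0 a'.2,
            mem_U.mp u.2.1, mem_U.mp u'.2.1] at h2
          have h3 : ((a : V) - a') + ((a : V) - a') = 0 := by
            have h4 : ((a : V) - a') + ((a : V) - a') =
              ((a : V) + u - (a' + u')) - ((-a : V) + u - (-a' + u')) := by abel
            rw [h4, h1, h2, sub_self, sub_self, sub_self]
          have h5 : (a : V) = a' := sub_eq_zero.mp (hB.two_nsmul_eq_zero hp h3)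
          have h6 : (u : V) = u' := by rw [h5] at h1; exact add_left_cancel h1
          exact Prod.ext (Subtype.ext h5) (Subtype.ext h6)
        · rintro ⟨v, hv⟩
          have h1 : hf p (v - r0 • v) ∈ Im V r0 := by
            rw [hf]; refine (Im V r0).nsmul_mem ?_ _
            have : v - r0 • v = -(r0 • v - v) := by abel
            rw [this]; exact (Im V r0).neg_mem (sub_mem_Im r0 v)
          have h2 : v - hf p (v - r0 • v) ∈ U V r0 := by
            rw [mem_U, smul_sub, hB.TT_smul_Im hr0 h1]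
            have h3 := hB.hf_add hp (v - r0 • v)
            have h4 : r0 • v = v - (hf p (v - r0 • v) + hf p (v - r0 • v)) := by rw [h3]; abel
            nth_rewrite 1 [h4]; abel
          exact ⟨⟨⟨_, h1⟩, ⟨_, h2, X.sub_mem hv (hle0 h1)⟩⟩, Subtype.ext (by simp)⟩
      have h1 := Nat.card_congr (Equiv.ofBijective _ hbij)
      rw [Nat.card_prod, hc0, hXc] at h1
      exact Nat.eq_of_mul_eq_mul_left (by omega) h1
    have key : Nat.card {v : V // v ∈ W ∧ v ≠ 0} = Nat.card {r : R // r.1 • x = x} * (q - 1) := by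
      refine card_of_unique (fun (r : {r : R // r.1 • x = x}) (v : {v : V // v ∈ W ∧ v ≠ 0}) =>
        v.1 ∈ Im V r.1.1) ?_ _ ?_
      · rintro ⟨v, hv, hv0⟩
        obtain ⟨r, hr, hvr, hle, hc⟩ := hX v hv.2 hv0
        have hne : r0 ≠ r := by
          rintro rfl
          have h1 := hB.TT_smul_Im hr0 hvr
          rw [mem_U.mp hv.1] at h1
          exact hB.neg_ne_self hp hv0 h1.symm
        have hcm : r0 * r = r * r0 := (hB.TT_comm_iff_fix hr0 hr hne hv0 hvr).mpr (mem_U.mp hv.1)
        have hfx : r • x = x := hB.TT_fix_of_comm hr hr0 hne.symm hcm.symm hxr0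
        refine ⟨⟨⟨r, hr, hle, hc⟩, hfx⟩, hvr, ?_⟩
        rintro ⟨⟨r', hr', hle', hc'⟩, hfx'⟩ hvr'
        exact Subtype.ext (Subtype.ext (hB.TT_unique hr' hr hv0 hvr' hvr))
      · rintro ⟨⟨r, hr, hle, hc⟩, hfx⟩
        have hfx : r • x = x := hfx
        have hne : r0 ≠ r := by
          rintro rfl
          have h1 := hB.TT_smul_Im hr0 hxr0
          rw [hfx] at h1
          exact hB.neg_ne_self hp hx0 h1.symm
        have hcm : r * r0 = r0 * r := hB.TT_comm_of_fix hr0 hx0 hxr0 hfx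
        have h1 : Nat.card {v : {v : V // v ∈ W ∧ v ≠ 0} // v.1 ∈ Im V r} =
            ((Im V r : Set V) \ {0}).ncard := by
          rw [← Nat.card_coe_set_eq]
          refine Nat.card_congr ⟨fun v => ⟨v.1.1, v.2, v.1.2.2⟩, fun v => ⟨⟨v.1,
            ⟨mem_U.mpr (hB.TT_fix_of_comm hr0 hr hne hcm.symm v.2.1), hle v.2.1⟩, v.2.2⟩, v.2.1⟩,
            fun v => rfl, fun v => rfl⟩
        change Nat.card {v : {v : V // v ∈ W ∧ v ≠ 0} // v.1 ∈ Im V r} = q - 1
        rw [h1, Set.ncard_sdiff (by simp) (Set.toFinite _), ← Nat.card_coe_set_eq,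
          Set.ncard_singleton]
        change Nat.card (Im V r) - 1 = _
        rw [hc]
    have cW' : Nat.card {v : V // v ∈ W ∧ v ≠ 0} + 1 = q * q := by
      have h1 : Nat.card {v : V // v ∈ W ∧ v ≠ 0} = ((W : Set V) \ {0}).ncard := by
        rw [← Nat.card_coe_set_eq]; rfl
      rw [h1, Set.ncard_sdiff_singleton_add_one (W.zero_mem) (Set.toFinite _),
        ← Nat.card_coe_set_eq]
      exact cW
    rw [← key, cW']
  have hq2 : q * q = (q + 1) * (q - 1) + 1 := by
    obtain ⟨m, rfl⟩ : ∃ m, q = m + 1 := ⟨q - 1, by omega⟩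
    simp only [Nat.add_sub_cancel]; ring
  have cF' : ∀ x ∈ X, x ≠ 0 → Nat.card {r : R // r.1 • x = x} = q + 1 := by
    intro x hx hx0
    have h1 := cF x hx hx0
    rw [hq2] at h1
    exact Nat.eq_of_mul_eq_mul_right (by omega : 0 < q - 1) (Nat.add_right_cancel h1)
  have cR' : Nat.card R = q * q + q + 1 := by
    rw [cR] at cX
    have h1 : q * (q * q) = (q * q + q + 1) * (q - 1) + 1 := by
      obtain ⟨m, rfl⟩ : ∃ m, q = m + 1 := ⟨q - 1, by omega⟩
      simp only [Nat.add_sub_cancel]; ring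
    rw [h1] at cX
    exact Nat.eq_of_mul_eq_mul_right (by omega : 0 < q - 1) (Nat.add_right_cancel cX)
  -- the moved ones
  have cM : ∀ x ∈ X, x ≠ 0 → {r : R | r.1 • x ≠ x}.ncard = q * q := by
    intro x hx hx0
    have h1 := Set.ncard_add_ncard_compl {r : R | r.1 • x = x}
    have h2 : {r : R | r.1 • x = x}.ncard = q + 1 := by
      rw [← Nat.card_coe_set_eq]; exact cF' x hx hx0
    rw [h2, cR'] at h1
    have h3 : {r : R | r.1 • x = x}ᶜ = {r : R | r.1 • x ≠ x} := rfl
    rw [h3] at h1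
    omega
  -- the classes
  have cC : ∀ x ∈ X, x ≠ 0 → {y : V | y ∈ X ∧ Cj H x y}.ncard = q * q + 1 := by
    intro x hx hx0
    have h1 : {y : V | y ∈ X ∧ Cj H x y} =
        insert x ((fun r : R => r.1 • x) '' {r : R | r.1 • x ≠ x}) := by
      ext y
      simp only [Set.mem_ofPred_eq, Set.mem_insert_iff, Set.mem_image]
      constructor
      · rintro ⟨hy, hxy⟩
        by_cases hyx : y = x
        · exact Or.inl hyx
        · right
          have hw : y - x ≠ 0 := sub_ne_zero.mpr hyx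
          obtain ⟨r, hr, hwr, hle, hc⟩ := hX (y - x) (X.sub_mem hy hx) hw
          have h2 := (hB.TT_iff hr hw hwr x).mp (by rw [add_sub_cancel]; exact hxy)
          rw [add_sub_cancel] at h2
          exact ⟨⟨r, hr, hle, hc⟩, by rw [h2]; exact hyx, h2⟩
      · rintro (rfl | ⟨⟨r, hr, hle, hc⟩, hne, rfl⟩)
        · exact ⟨hx, Cj.refl _⟩
        · refine ⟨?_, ⟨r, rfl⟩⟩
          have : r • x = (r • x - x) + x := by abel
          change r • x ∈ X
          rw [this]
          exact X.add_mem (hle (sub_mem_Im r x)) hx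
    rw [h1, Set.ncard_insert_of_notMem, Set.InjOn.ncard_image, cM x hx hx0]
    · rintro ⟨r, hr, hle, hc⟩ hne ⟨r', hr', hle', hc'⟩ hne' heq
      have heq : r • x = r' • x := heq
      have hne : r • x ≠ x := hne
      refine Subtype.ext ?_
      refine hB.TT_unique hr hr' (sub_ne_zero.mpr hne) (sub_mem_Im r x) ?_
      rw [heq]; exact sub_mem_Im r' x
    · rintro ⟨r, hne, hx⟩
      exact hne hx
  -- divisibility
  let S : Setoid X' := ⟨fun x y => Cj H x.1 y.1, fun x => Cj.refl _, fun h => h.symm,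
    fun h h' => h.trans h'⟩
  have hdiv : Nat.card X' = Nat.card (Quotient S) * (q * q + 1) := by
    refine card_of_unique (fun (c : Quotient S) (x : X') => Quotient.mk S x = c) ?_ _ ?_
    · intro x
      exact ⟨Quotient.mk S x, rfl, fun c hc => hc.symm⟩
    · intro c
      induction c using Quotient.inductionOn with
      | h x =>
        rw [← cC x.1 x.2.1 x.2.2, ← Nat.card_coe_set_eq]
        refine Nat.card_congr ⟨fun y => ⟨y.1.1, y.1.2.1, ?_⟩, fun y => ⟨⟨y.1, y.2.1, ?_⟩, ?_⟩,
          fun y => rfl, fun y => rfl⟩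
        · exact (Quotient.exact y.2).symm
        · intro h0
          have := y.2.2
          rw [h0, Cj.zero_iff] at this
          exact x.2.2 this
        · exact Quotient.sound (s := S) (Cj.symm y.2.2)
  have h1 : q * (q * q) = Nat.card (Quotient S) * (q * q + 1) + 1 := by rw [← hdiv, cX]
  have h2 : (q * q + 1) ∣ (q + 1) := by
    have h3 : (q * q + 1) ∣ q * (q * q + 1) := Dvd.intro_left _ rfl
    have h4 : q * (q * q + 1) = Nat.card (Quotient S) * (q * q + 1) + (q + 1) := by
      have : q * (q * q + 1) = q * (q * q) + q := by ring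
      rw [this, h1]; ring
    rw [h4] at h3
    exact (Nat.dvd_add_right (Dvd.intro_left _ rfl)).mp h3
  have h3 := Nat.le_of_dvd (by omega) h2
  nlinarith


/-- the generic element of the candidate space. -/
theorem exists_Im_of_plane (hB : BinN p H V) (hp : p ≠ 2) {s t s1 r r' : H} (hs : s ∈ TT H V)
    (ht : t ∈ TT H V) (hst : s * t ≠ t * s) (hs1 : s1 ∈ TT H V) (hs1K : s1 ∈ KK V s t)
    (hr : r ∈ TT H V) (hs1r : s1 * r ≠ r * s1) (hr' : r' ∈ TT H V) (hr'A : Im V r' ≤ YY V s1 r)
    (hr'Z : Im V r' ≤ ZZ V s t) {y a a' : V} (hy : y ∈ YY V s t) (ha : a ∈ Im V s1)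
    (ha' : a' ∈ Im V r') (hnp : ¬ Perp H (y + a) a) (ha'0 : a' ≠ 0) :
    ∃ g ∈ TT H V, y + a' ∈ Im V g ∧ Im V g ≤ YY V s t ⊔ YY V s1 r ∧
      Nat.card (Im V g) = Nat.card (Im V s) := by
  have hG := hB.good_odd hp hs ht hst
  have hG1 := hB.good_odd hp hs1 hr hs1r
  have haY : a ∈ YY V s t := hB.Im_le_YY hs ht hst hG hs1K ha
  have h0 : y + a ≠ 0 := by
    intro h
    apply hnp
    rw [h]
    unfold Perp
    rw [zero_add, zero_sub]
    exact hB.cj_neg a
  have ha'Y : a' ∉ YY V s t := fun h => ha'0 (hB.YY_inf_ZZ hs ht hst h (hr'Z ha'))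
  obtain ⟨s3, hs3, hs3K, hs3y⟩ := hB.exists_mem_Im hs ht hst hG (add_mem hy haY) h0
  have h1 : a' - a ∈ YY V s1 r := sub_mem (hr'A ha') (AddSubgroup.mem_sup_left ha)
  have h2 : a' - a ≠ 0 := by
    intro h
    rw [sub_eq_zero] at h
    exact ha'Y (h ▸ haY)
  obtain ⟨r2, hr2, hr2K, hr2a⟩ := hB.exists_mem_Im hs1 hr hs1r hG1 h1 h2
  have hne : s3 ≠ r2 := by
    rintro rfl
    have h3 : a' - a ∈ YY V s t := hB.Im_le_YY hs ht hst hG hs3K hr2a
    have h4 := add_mem h3 haY
    rw [sub_add_cancel] at h4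
    exact ha'Y h4
  have hnc : s3 * r2 ≠ r2 * s3 := by
    intro hc
    have h3 := hB.TT_fix_of_comm hs3 hr2 hne hc hr2a
    rw [smul_sub, hs3K a' (hr'Z ha')] at h3
    have h4 : s3 • a = a := by
      have := sub_right_injective h3
      exact this
    exact hnp (hB.perp_of_fix_neg (hB.TT_smul_Im hs3 hs3y) h4)
  have hG2 := hB.good_odd hp hs3 hr2 hnc
  have h5 : y + a' ∈ YY V s3 r2 := by
    have : y + a' = (y + a) + (a' - a) := by abel
    rw [this]
    exact AddSubgroup.add_mem_sup hs3y hr2a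
  have h6 : y + a' ≠ 0 := by
    intro h
    apply ha'Y
    rw [← neg_eq_iff_add_eq_zero] at h
    rw [← h]
    exact neg_mem hy
  obtain ⟨g, hg, hgK, hgy⟩ := hB.exists_mem_Im hs3 hr2 hnc hG2 h5 h6
  refine ⟨g, hg, hgy, (hB.Im_le_YY hs3 hr2 hnc hG2 hgK).trans ?_, ?_⟩
  · refine sup_le ?_ ?_
    · exact (hB.Im_le_YY hs ht hst hG hs3K).trans le_sup_left
    · exact (hB.Im_le_YY hs1 hr hs1r hG1 hr2K).trans le_sup_right
  · rw [hB.card_Im_K hs3 hr2 hnc hg hgK, hB.card_Im_K hs ht hst hs3 hs3K]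

theorem comm_of_not_mem_KK_odd (hB : BinN p H V) (hp : p ≠ 2) {s t r : H} (hs : s ∈ TT H V)
    (ht : t ∈ TT H V) (hst : s * t ≠ t * s) (hr : r ∈ TT H V) (hrK : r ∉ KK V s t) :
    r * s = s * r := by
  by_contra hno
  have hG := hB.good_odd hp hs ht hst
  obtain ⟨r0, hr0, hr00⟩ := hB.Im_ne_bot hr.1
  obtain ⟨y, hy, z, hz, hyz⟩ := hB.exists_decomp hs ht hst r0
  have hsa : s • r0 ≠ r0 := fun h => hr00 (hB.eq_zero_of_noncomm hr (Ne.symm hno) hr0 h)
  have hy0 : y ≠ 0 := by
    rintro rfl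
    apply hsa
    rw [hyz, zero_add]
    exact mem_U.mp hz.1
  obtain ⟨s1, hs1, hs1K, hs1y⟩ := hB.exists_mem_Im hs ht hst hG hy hy0
  have hs1r' : s1 ≠ r := by rintro rfl; exact hrK hs1K
  have hz0 : z ≠ 0 := by
    rintro rfl
    rw [add_zero] at hyz
    rw [hyz] at hr0
    exact hs1r' (hB.TT_unique hs1 hr hy0 hs1y hr0)
  have hs1r : s1 * r ≠ r * s1 := by
    intro hc
    have h1 := hB.TT_fix_of_comm hs1 hr hs1r' hc hr0
    rw [hyz, smul_add, hB.TT_smul_Im hs1 hs1y, hs1K z hz] at h1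
    exact hB.neg_ne_self hp hy0 (add_right_cancel h1)
  have hG1 := hB.good_odd hp hs1 hr hs1r
  have hzA : z ∈ YY V s1 r := by
    have : z = (-y) + r0 := by rw [hyz]; abel
    rw [this]
    exact AddSubgroup.add_mem_sup (neg_mem hs1y) hr0
  obtain ⟨r', hr', hr'K, hr'z⟩ := hB.exists_mem_Im hs1 hr hs1r hG1 hzA hz0
  have hr'A : Im V r' ≤ YY V s1 r := hB.Im_le_YY hs1 hr hs1r hG1 hr'K
  have hr'Z : Im V r' ≤ ZZ V s t := by
    have aux : ∀ g : H, g ∈ TT H V → g ∈ KK V s t → Im V r' ≤ U V g := by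
      intro g hg hgK w hw
      have h1 : g * r' = r' * g := hB.TT_comm_of_fix hr' hz0 hr'z (hgK z hz)
      have h2 : g ≠ r' := by
        rintro rfl
        have h3 := hB.TT_smul_Im hg hr'z
        rw [hgK z hz] at h3
        exact hB.neg_ne_self hp hz0 h3.symm
      exact mem_U.mpr (hB.TT_fix_of_comm hg hr' h2 h1 hw)
    exact le_inf (aux s hs (left_mem_KK s t)) (aux t ht (right_mem_KK s t))
  have cr' : Nat.card (Im V r') = Nat.card (Im V s) := by
    rw [hB.card_Im_K hs1 hr hs1r hr' hr'K, hB.card_Im_K hs ht hst hs1 hs1K]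
  set q := Nat.card (Im V s) with hq
  have hq1 : 1 < q := hB.one_lt_card_Im hs.1
  let X : AddSubgroup V := YY V s t ⊔ Im V r'
  have hAX : YY V s1 r ≤ X := by
    -- count
    have h1 : Im V s1 ⊔ Im V r' ≤ YY V s1 r := sup_le le_sup_left hr'A
    have h2 : Im V s1 ⊔ Im V r' = YY V s1 r := by
      apply AddSubgroup.eq_of_le_of_card_ge h1
      have h3 : Disjoint (Im V s1) (Im V r') := by
        rw [AddSubgroup.disjoint_def]
        intro x hx hx'
        exact hB.Im_inf_ZZ hs ht hst hs1 hs1K hx (hr'Z hx')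
      have h4 : Nat.card (Im V s1) * Nat.card (Im V r') ≤ Nat.card ↥(Im V s1 ⊔ Im V r') := by
        rw [← Nat.card_prod]
        refine Nat.card_le_card_of_injective
          (fun x => (⟨x.1.1 + x.2.1, AddSubgroup.add_mem_sup x.1.2 x.2.2⟩ :
            ↥(Im V s1 ⊔ Im V r'))) ?_
        rintro ⟨a, b⟩ ⟨a', b'⟩ h
        have h5 : (a : V) + b = a' + b' := congrArg Subtype.val h
        have h6 : (a : V) - a' = b' - b := by
          rw [sub_eq_sub_iff_add_eq_add, h5]; abel
        have h7 : (a : V) - a' = 0 := by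
          rw [AddSubgroup.disjoint_def] at h3
          exact h3 (sub_mem a.2 a'.2) (h6 ▸ sub_mem b'.2 b.2)
        have h8 : (b' : V) - b = 0 := by rw [← h6, h7]
        exact Prod.ext (Subtype.ext (sub_eq_zero.mp h7)) (Subtype.ext (sub_eq_zero.mp h8).symm)
      rw [hB.card_YY hs1 hr hs1r]
      rw [cr', hB.card_Im_K hs ht hst hs1 hs1K] at h4
      rw [hB.card_Im_K hs ht hst hs1 hs1K]
      exact h4
    rw [← h2]
    exact sup_le ((hB.Im_le_YY hs ht hst hG hs1K).trans le_sup_left) le_sup_right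
  refine hB.no_cube hp X q hq1 ?_ ?_
  · have hbij : Function.Bijective (fun x : Im V r' × YY V s t =>
        (⟨x.2.1 + x.1.1, AddSubgroup.add_mem_sup x.2.2 x.1.2⟩ : X)) := by
      constructor
      · rintro ⟨a, b⟩ ⟨a', b'⟩ h
        have h5 : (b : V) + a = b' + a' := congrArg Subtype.val h
        have h6 : (b : V) - b' = a' - a := by
          rw [sub_eq_sub_iff_add_eq_add, h5]; abel
        have h7 : (b : V) - b' = 0 :=
          hB.YY_inf_ZZ hs ht hst (sub_mem b.2 b'.2) (h6 ▸ sub_mem (hr'Z a'.2) (hr'Z a.2))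
        have h8 : (a' : V) - a = 0 := by rw [← h6, h7]
        exact Prod.ext (Subtype.ext (sub_eq_zero.mp h8).symm) (Subtype.ext (sub_eq_zero.mp h7))
      · rintro ⟨v, hv⟩
        obtain ⟨b, hb, a, ha, rfl⟩ := AddSubgroup.mem_sup.mp hv
        exact ⟨⟨⟨a, ha⟩, ⟨b, hb⟩⟩, rfl⟩
    rw [← Nat.card_congr (Equiv.ofBijective _ hbij), Nat.card_prod, cr', hB.card_YY hs ht hst]
  · have hXX : YY V s t ⊔ YY V s1 r ≤ X := sup_le le_sup_left hAX
    intro x hx hx0
    obtain ⟨y', hy', a', ha', rfl⟩ := AddSubgroup.mem_sup.mp hx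
    by_cases ha'0 : a' = 0
    · subst ha'0
      rw [add_zero] at hx0 ⊢
      obtain ⟨g, hg, hgK, hgy⟩ := hB.exists_mem_Im hs ht hst hG hy' hx0
      exact ⟨g, hg, hgy, (hB.Im_le_YY hs ht hst hG hgK).trans le_sup_left,
        hB.card_Im_K hs ht hst hg hgK⟩
    by_cases hy'0 : y' = 0
    · subst hy'0
      rw [zero_add]
      exact ⟨r', hr', ha', le_sup_right, cr'⟩
    have : ∃ a ∈ Im V s1, ¬ Perp H (y' + a) a := by
      by_cases hfix : s1 • y' = y'
      · refine ⟨y, hs1y, fun hP => hy0 (hB.perp_self hp ?_)⟩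
        have h1 : Perp H y' y := hB.perp_symm (hB.perp_of_fix_neg (hB.TT_smul_Im hs1 hs1y) hfix)
        have h2 := hB.perp_add hp hP (hB.perp_neg hp h1)
        have h3 : y' + y + -y' = y := by abel
        rwa [h3] at h2
      · refine ⟨s1 • y' - y', sub_mem_Im s1 y', fun hP => hfix ?_⟩
        set a := s1 • y' - y' with ha
        have h0 : s1 • a = -a := hB.TT_smul_Im hs1 (sub_mem_Im s1 y')
        have e1 : y' + a = s1 • y' := by rw [ha]; abel
        have h1 : Perp H y' a := by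
          obtain ⟨k, hk⟩ := hP
          unfold Perp
          have e2 : s1 • (y' + a + a) = y' - a := by
            rw [e1, smul_add, ← mul_smul, hB.TT_sq hs1, one_smul, h0]; abel
          have e3 : s1 • (y' + a - a) = y' + a := by
            rw [e1, smul_sub, ← mul_smul, hB.TT_sq hs1, one_smul, h0, ← e1]; abel
          have e4 := (Cj.smul_smul s1 ⟨k, hk⟩).symm
          rwa [e2, e3] at e4
        have h2 := hB.perp_add hp hP (hB.perp_neg hp h1)
        have h3 : y' + a + -y' = a := by abel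
        rw [h3] at h2
        exact sub_eq_zero.mp (hB.perp_self hp h2)
    obtain ⟨a, ha, hnp⟩ := this
    obtain ⟨g, hg, h1, h2, h3⟩ := hB.exists_Im_of_plane hp hs ht hst hs1 hs1K hr hs1r hr' hr'A
      hr'Z hy' ha ha' hnp ha'0
    exact ⟨g, hg, h1, h2.trans hXX, h3⟩

/-- swapping commuting conjugates of an element with minimal image -/
theorem exists_swap_odd (hB : BinN p H V) (hp : p ≠ 2) {s : H} (hs : s ∈ TT H V)
    (hmin : ∀ k : H, k ≠ 1 → Nat.card (Im V s) ≤ Nat.card (Im V k)) {h : H}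
    (hne : h * s * h⁻¹ ≠ s) (hc : s * (h * s * h⁻¹) = (h * s * h⁻¹) * s) :
    ∃ τ ∈ TT H V, τ * s * τ⁻¹ = h * s * h⁻¹ := by
  set s' := h * s * h⁻¹ with hs'
  have hs'T : s' ∈ TT H V := TT_conj hs h
  obtain ⟨v, hv, hv0⟩ := hB.Im_ne_bot hs.1
  have hv' : h • v ∈ Im V s' := conj_mem_Im hv
  set v' := h • v with hv'def
  have hv'0 : v' ≠ 0 := by
    rw [hv'def]; exact (smul_ne_zero_iff_ne _).mpr hv0
  obtain ⟨τ, hτ, hτv, hτP, hτw⟩ := hB.exists_perp_inv hp (v' - v)
  have t1 : τ • v = v' := by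
    have := (hτv v).mp (by rw [add_sub_cancel]; exact ⟨h, rfl⟩)
    rwa [add_sub_cancel] at this
  have t2 : τ • v' = v := by rw [← t1, ← mul_smul, hτ, one_smul]
  have hτs : τ * s * τ⁻¹ = s' := by
    refine hB.TT_unique (TT_conj hs τ) hs'T hv'0 ?_ hv'
    have := conj_mem_Im (k := τ) hv
    rwa [t1] at this
  have hτ1 : τ ≠ 1 := by
    rintro rfl
    apply hne
    rw [← hτs]; group
  refine ⟨τ, ?_, hτs⟩
  -- the fixed space of `τ` is large
  set W : AddSubgroup V := U V s ⊓ U V s' with hW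
  have hWτ : W ≤ U V τ := by
    intro u hu
    have h1 : Perp H v u := hB.perp_of_fix_neg (hB.TT_smul_Im hs hv) (mem_U.mp hu.1)
    have h2 : Perp H v' u := hB.perp_of_fix_neg (hB.TT_smul_Im hs'T hv') (mem_U.mp hu.2)
    have h3 := hB.perp_add hp h2 (hB.perp_neg hp h1)
    rw [← sub_eq_add_neg] at h3
    exact mem_U.mpr ((hτP u).mp (hB.perp_symm h3))
  have hcard : Nat.card (Im V s) * Nat.card W ≤ Nat.card (U V τ) := by
    rw [← Nat.card_prod]
    refine Nat.card_le_card_of_injective (fun x : Im V s × W =>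
      (⟨x.1.1 + τ • x.1.1 + x.2.1, ?_⟩ : U V τ)) ?_
    · rw [mem_U, smul_add, smul_add, ← mul_smul, hτ, one_smul, mem_U.mp (hWτ x.2.2)]
      abel
    · rintro ⟨a, u⟩ ⟨a', u'⟩ heq
      have h1 : (a : V) + τ • (a : V) + u = a' + τ • (a' : V) + u' := congrArg Subtype.val heq
      have aux : ∀ (b : Im V s) (w : W), s • ((b : V) + τ • (b : V) + w) = -b + τ • (b : V) + w := by
        intro b w
        rw [smul_add, smul_add, hB.TT_smul_Im hs b.2, mem_U.mp w.2.1]
        have h3 : τ • (b : V) ∈ Im V s' := by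
          rw [← hτs]; exact conj_mem_Im b.2
        rw [hB.TT_fix_of_comm hs hs'T hne.symm hc h3]
      have h2 : s • ((a : V) + τ • (a : V) + u) = s • ((a' : V) + τ • (a' : V) + u') := by rw [h1]
      rw [aux, aux] at h2
      have h3 : ((a : V) - a') + ((a : V) - a') = 0 := by
        have h4 : ((a : V) - a') + ((a : V) - a') =
          ((a : V) + τ • (a : V) + u - (a' + τ • (a' : V) + u'))
            - ((-a : V) + τ • (a : V) + u - (-a' + τ • (a' : V) + u')) := by abel
        rw [h4, h1, h2, sub_self, sub_self, sub_self]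
      have h5 : (a : V) = a' := sub_eq_zero.mp (hB.two_nsmul_eq_zero hp h3)
      have h6 : (u : V) = u' := by rw [h5] at h1; exact add_left_cancel h1
      exact Prod.ext (Subtype.ext h5) (Subtype.ext h6)
  have hq : Nat.card (Im V s') = Nat.card (Im V s) := by
    have h1 := card_U_mul_card_Im (V := V) s
    have h2 := card_U_mul_card_Im (V := V) s'
    have h3 : Nat.card (U V s') = Nat.card (U V s) := by
      exact (Nat.card_congr ⟨fun x => ⟨h • x.1, conj_mem_U.mpr x.2⟩,
        fun x => ⟨h⁻¹ • x.1, mem_U_conj.mp x.2⟩, fun x => by simp, fun x => by simp⟩).symm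
    rw [h3, ← h1] at h2
    have h4 : 0 < Nat.card (U V s) := Nat.card_pos
    exact Nat.eq_of_mul_eq_mul_left h4 h2
  have hWV : Nat.card V ≤ Nat.card (Im V s) * Nat.card (Im V s) * Nat.card W := by
    let f : V →+ V × V := (dl (V := V) s).prod (dl (V := V) s')
    have h1 := f.ker.card_mul_index
    rw [AddSubgroup.index_ker] at h1
    have h2 : f.ker = W := by
      ext x
      rw [AddMonoidHom.mem_ker]
      change (s • x - x, s' • x - x) = 0 ↔ _
      rw [Prod.mk_eq_zero, sub_eq_zero, sub_eq_zero, hW, AddSubgroup.mem_inf, mem_U, mem_U]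
    have h3 : Nat.card f.range ≤ Nat.card (Im V s) * Nat.card (Im V s') := by
      rw [← Nat.card_prod]
      have m1 : ∀ x : f.range, x.1.1 ∈ Im V s := by
        rintro ⟨x, y, rfl⟩; exact sub_mem_Im s y
      have m2 : ∀ x : f.range, x.1.2 ∈ Im V s' := by
        rintro ⟨x, y, rfl⟩; exact sub_mem_Im s' y
      refine Nat.card_le_card_of_injective (fun x : f.range =>
        ((⟨x.1.1, m1 x⟩, ⟨x.1.2, m2 x⟩) : Im V s × Im V s')) ?_
      intro x y hxy
      rw [Prod.mk.injEq, Subtype.mk.injEq, Subtype.mk.injEq] at hxy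
      exact Subtype.ext (Prod.ext hxy.1 hxy.2)
    rw [h2] at h1
    rw [← h1, mul_comm]
    rw [hq] at h3
    exact Nat.mul_le_mul_right _ h3
  have hU : Nat.card (U V s) ≤ Nat.card (U V τ) := by
    have h1 := card_U_mul_card_Im (V := V) s
    have h2 : Nat.card (U V s) * Nat.card (Im V s) ≤ Nat.card (U V τ) * Nat.card (Im V s) := by
      rw [h1]
      refine hWV.trans ?_
      have := Nat.mul_le_mul_right (Nat.card (Im V s)) hcard
      calc Nat.card (Im V s) * Nat.card (Im V s) * Nat.card W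
          = Nat.card (Im V s) * Nat.card W * Nat.card (Im V s) := by ring
        _ ≤ _ := this
    exact Nat.le_of_mul_le_mul_right h2 Nat.card_pos
  refine ⟨hτ1, fun k hk hle => ?_⟩
  have h1 : Nat.card (U V k) ≤ Nat.card (U V s) := by
    have h1 := card_U_mul_card_Im (V := V) s
    have h2 := card_U_mul_card_Im (V := V) k
    have h3 := hmin k hk
    by_contra hlt
    push Not at hlt
    have h4 : 0 < Nat.card (Im V s) := Nat.card_pos
    have h5 : Nat.card (U V s) * Nat.card (Im V s) < Nat.card (U V k) * Nat.card (Im V k) :=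
      lt_of_lt_of_le (Nat.mul_lt_mul_of_pos_right hlt h4) (Nat.mul_le_mul_left _ h3)
    omega
  exact (AddSubgroup.eq_of_le_of_card_ge hle (h1.trans hU)).ge

/-- **The case `p` odd.** -/
theorem exists_pair_odd (hB : BinN p H V) (hp : p ≠ 2) (hne : ∃ g : H, g ≠ 1) :
    (Nat.card V = p ∧ Nat.card H = 2) ∨
    ∃ s ∈ TT H V, ∃ t ∈ TT H V, s * t ≠ t * s ∧ YY V s t = ⊤ := by
  obtain ⟨s, hs1, hmin⟩ := Set.exists_min_image {g : H | g ≠ 1} (fun g => Nat.card (Im V g))
    (Set.toFinite _) hne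
  have hs1 : s ≠ 1 := hs1
  have hmin : ∀ k : H, k ≠ 1 → Nat.card (Im V s) ≤ Nat.card (Im V k) := fun k hk => hmin k hk
  have hUmax : ∀ k : H, k ≠ 1 → Nat.card (U V k) ≤ Nat.card (U V s) := by
    intro k hk
    have h1 := card_U_mul_card_Im (V := V) s
    have h2 := card_U_mul_card_Im (V := V) k
    have h3 := hmin k hk
    by_contra hlt
    push Not at hlt
    have h4 : 0 < Nat.card (Im V s) := Nat.card_pos
    have h5 : Nat.card (U V s) * Nat.card (Im V s) < Nat.card (U V k) * Nat.card (Im V k) :=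
      lt_of_lt_of_le (Nat.mul_lt_mul_of_pos_right hlt h4) (Nat.mul_le_mul_left _ h3)
    omega
  have hs : s ∈ TT H V :=
    ⟨hs1, fun k hk hle => (AddSubgroup.eq_of_le_of_card_ge hle (hUmax k hk)).ge⟩
  by_cases hcent : ∀ h : H, h * s * h⁻¹ = s
  · left
    have hU : U V s = ⊥ := by
      rcases hB.irr (U V s) (by
        intro h m hm
        have := (conj_mem_U (k := h)).mpr hm
        rwa [hcent h] at this) with h | h
      · exact h
      · exfalso
        exact hs1 (hB.faith s fun v => mem_U.mp (h ▸ AddSubgroup.mem_top v))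
    have hall : ∀ k : H, k ≠ 1 → ∀ v : V, k • v = -v := by
      intro k hk
      have h1 : U V k = ⊥ := by
        have h2 := hUmax k hk
        rw [hU] at h2
        have h3 : Nat.card (⊥ : AddSubgroup V) = 1 := by simp
        rw [h3] at h2
        exact AddSubgroup.eq_bot_of_card_le _ h2
      have h2 : Im V k = ⊤ := by
        have h3 := card_U_mul_card_Im (V := V) k
        rw [h1] at h3
        have h4 : Nat.card (⊥ : AddSubgroup V) = 1 := by simp
        rw [h4, one_mul] at h3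
        exact AddSubgroup.eq_top_of_card_eq _ h3
      have h3 : k ∈ TT H V := ⟨hk, fun l hl hle => by
        have h5 := hUmax l hl
        rw [hU] at h5
        have h6 : Nat.card (⊥ : AddSubgroup V) = 1 := by simp
        rw [h6] at h5
        rw [AddSubgroup.eq_bot_of_card_le _ h5]; exact bot_le⟩
      intro v
      exact hB.TT_smul_Im h3 (h2 ▸ AddSubgroup.mem_top v)
    have hH : ∀ k : H, k = 1 ∨ k = s := by
      intro k
      by_cases hk : k = 1
      · exact Or.inl hk
      · right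
        have : s⁻¹ * k = 1 := by
          apply hB.faith
          intro v
          rw [mul_smul, hall k hk, ← hall s hs1, inv_smul_smul]
        rw [← mul_left_cancel_iff (a := s⁻¹), this]; group
    constructor
    · -- every subgroup is invariant
      have hinv : ∀ M : AddSubgroup V, M = ⊥ ∨ M = ⊤ := by
        intro M
        apply hB.irr
        intro h m hm
        rcases hH h with rfl | rfl
        · rwa [one_smul]
        · rw [hall _ hs1]; exact M.neg_mem hm
      have : ∃ v : V, v ≠ 0 := by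
        obtain ⟨w, _, hw⟩ := hB.Im_ne_bot hs1
        exact ⟨w, hw⟩
      obtain ⟨v, hv⟩ := this
      have h1 : AddSubgroup.zmultiples v = ⊤ := by
        rcases hinv (AddSubgroup.zmultiples v) with h | h
        · rw [AddSubgroup.zmultiples_eq_bot] at h; exact absurd h hv
        · exact h
      have h2 : addOrderOf v = p := by
        have := Fact.mk hB.prime
        exact addOrderOf_eq_prime (hB.exp v) hv
      rw [← h2, ← Nat.card_zmultiples, h1]
      exact (Nat.card_congr (Equiv.Set.univ V)).symm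
    · have : Nat.card H = ({1, s} : Set H).ncard := by
        have h1 : ({1, s} : Set H) = Set.univ := by
          ext k; simp only [Set.mem_insert_iff, Set.mem_singleton_iff, Set.mem_univ, iff_true]
          exact hH k
        rw [h1, Set.ncard_univ]
      rw [this, Set.ncard_pair hs1.symm]
  · right
    push Not at hcent
    obtain ⟨h, hh⟩ := hcent
    obtain ⟨t, ht, hst⟩ : ∃ t ∈ TT H V, s * t ≠ t * s := by
      by_cases hc : s * (h * s * h⁻¹) = (h * s * h⁻¹) * s
      · obtain ⟨τ, hτ, hτs⟩ := hB.exists_swap_odd hp hs hmin hh hc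
        refine ⟨τ, hτ, fun hcc => hh ?_⟩
        rw [← hτs, ← hcc]; group
      · exact ⟨_, TT_conj hs h, hc⟩
    refine ⟨s, hs, t, ht, hst, hB.YY_eq_top_of_conj hs ht hst (hB.good_odd hp hs ht hst) ?_⟩
    intro k
    by_contra hno
    have hc := hB.comm_of_not_mem_KK_odd hp hs ht hst (TT_conj hs k) hno
    have hne : k * s * k⁻¹ ≠ s := by
      intro h; rw [h] at hno; exact hno (left_mem_KK s t)
    obtain ⟨τ, hτ, hτs⟩ := hB.exists_swap_odd hp hs hmin hne hc.symm
    have hτK : τ ∈ KK V s t := by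
      by_contra hn
      have h1 := hB.comm_of_not_mem_KK_odd hp hs ht hst hτ hn
      apply hne
      rw [← hτs, h1]; group
    apply hno
    rw [← hτs]
    exact (KK V s t).mul_mem ((KK V s t).mul_mem hτK (left_mem_KK s t)) ((KK V s t).inv_mem hτK)

end BinN

end Cfsg.Agent.H900.BinLin
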