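import Mathlib
import Cfsg.Agent.H900.BinLin.EndOdd
import Cfsg.Agent.H900.BinLin.Fld

/-!
# Classification of the binary irreducible linear groups
-/

set_option autoImplicit false
set_option linter.unusedSectionVars false
set_option linter.unusedVariables false

namespace Cfsg.Agent.H900.BinLin

open BinN

variable {p : ℕ} {H V : Type*} [Group H] [AddCommGroup V] [DistribMulAction H V]
  [Finite V] [Finite H]

theorem concl_of_pair (hB : BinN p H V) {s t : H} (hs : s ∈ TT H V) (ht : t ∈ TT H V)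
    (hst : s * t ≠ t * s) (hY : YY V s t = ⊤) : Concl H V := by
  have hG : Good V s t := by
    by_cases hp : p = 2
    · subst hp; exact hB.good_two hs ht hst
    · exact hB.good_odd hp hs ht hst
  have hZ : ∀ z ∈ ZZ V s t, z = 0 := fun z hz =>
    hB.YY_inf_ZZ hs ht hst (hY ▸ AddSubgroup.mem_top z) hz
  have hZb : ZZ V s t = ⊥ := by
    rw [eq_bot_iff]; intro z hz; exact hZ z hz
  have hK : ∀ h : H, h ∈ KK V s t := by
    intro h z hz
    rw [hZ z hz, smul_zero]
  obtain ⟨c, hc⟩ := hB.card_Im_eq_pow s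
  have hq1 := hB.one_lt_card_Im hs.1
  have hc0 : 0 < c := by
    rcases Nat.eq_zero_or_pos c with h | h
    · rw [hc, h, pow_zero] at hq1; omega
    · exact h
  have cV : Nat.card V = p ^ c * p ^ c := by
    have h1 := hB.card_V hs ht hst
    rw [hZb, hc] at h1
    simpa using h1
  have cP := hB.card_KP hs ht hst hG
  rw [hc] at cP
  set P := hB.KP hs ht hst hG with hP
  have memP : ∀ k, k ∈ P ↔ k ∉ TT H V := by
    intro k
    rw [hP, hB.mem_KP]
    exact ⟨fun h => h.2, fun h => ⟨hK k, h⟩⟩
  -- a fixed vector of `s`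
  obtain ⟨v0, hv0, hv0Z⟩ := hB.exists_not_mem_ZZ hs ht hst hs (hK s)
  have hv00 : v0 ≠ 0 := fun h => hv0Z (h ▸ (ZZ V s t).zero_mem)
  have hinv : ∀ k ∈ P, s * k = k⁻¹ * s := by
    intro k hk
    have h1 := (hB.mul_KP hs ht hst hG hs (hK s) hk).1
    have h2 := hB.TT_sq h1
    have h3 := hB.TT_sq hs
    have h4 : s * k * s = k⁻¹ := by
      rw [eq_inv_iff_mul_eq_one, ← h2]; group
    calc s * k = s * k * (s * s) := by rw [h3, mul_one]
      _ = k⁻¹ * s := by rw [← h4]; group
  refine concl_of_data hB.prime hc0 P cP cV hB.faith ?_ ?_ s hs.1 (hB.TT_sq hs) hinv ?_ v0 hv00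
    (mem_U.mp hv0)
  · intro k hk x hx hkx
    exact hB.KP_semireg hs ht hst hG hk (fun h => hx (hZ x h)) hkx
  · intro a ha b hb
    have h1 := hinv (a * b) (P.mul_mem ha hb)
    have h2 : s * (a * b) = (a⁻¹ * b⁻¹) * s := by
      rw [← mul_assoc, hinv a ha, mul_assoc, hinv b hb]; group
    rw [h2] at h1
    have h3 : a⁻¹ * b⁻¹ = (a * b)⁻¹ := mul_right_cancel h1
    have h4 := congrArg (·⁻¹) h3
    simp only [mul_inv_rev, inv_inv] at h4
    exact h4.symm
  · intro h
    by_cases hh : h ∈ P
    · exact Or.inl hh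
    · right
      have h1 : h ∈ TT H V := by
        by_contra hno; exact hh ((memP h).mpr hno)
      rw [memP]
      intro h2
      -- `s * (s⁻¹ ...)`
      have h3 : (h * s) ∈ P ∨ (h * s) ∉ P := em _
      -- two elements of `TT` differ by an element of `P`
      obtain ⟨x, hxU, hxZ⟩ := hB.exists_not_mem_ZZ hs ht hst h1 (hK h)
      obtain ⟨r, hr, hrK, hrx⟩ := hG.hC s (hK s) x hxZ
      -- `s x = r x` with `r ∈ TT`, so `r = s`
      -- `h s ∈ TT`: it fixes a vector `y`
      obtain ⟨y, hyU, hyZ⟩ := hB.exists_not_mem_ZZ hs ht hst h2 (hK _)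
      have h4 : h • (s • y) = y := by rw [← mul_smul]; exact mem_U.mp hyU
      have h5 : h • y = s • y := by
        rw [← h4, ← mul_smul, hB.TT_sq h1, one_smul, h4]
      have h6 := hB.TT_inj hG h1 (hK h) hs (hK s) hyZ h5
      apply h2.1
      rw [h6]; exact hB.TT_sq hs

theorem linear_thm [Nontrivial V] (hB : Bin p H V) :
    (Nat.card V = p ∧ Nat.card H ≤ 2) ∨ Concl H V := by
  by_cases hne : ∃ g : H, g ≠ 1
  · have hN : BinN p H V := { hB with neg := hB.neg_mem hne }
    by_cases hp : p = 2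
    · subst hp
      obtain ⟨s, hs, t, ht, hst, hY⟩ := hN.exists_pair_two hne
      exact Or.inr (concl_of_pair hN hs ht hst hY)
    · rcases hN.exists_pair_odd hp hne with ⟨h1, h2⟩ | ⟨s, hs, t, ht, hst, hY⟩
      · exact Or.inl ⟨h1, h2.le⟩
      · exact Or.inr (concl_of_pair hN hs ht hst hY)
  · push Not at hne
    left
    have hinv : ∀ M : AddSubgroup V, M = ⊥ ∨ M = ⊤ := by
      intro M
      apply hB.irr
      intro h m hm
      rwa [hne h, one_smul]
    obtain ⟨v, hv⟩ := exists_ne (0 : V)
    constructor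
    · have h1 : AddSubgroup.zmultiples v = ⊤ := by
        rcases hinv (AddSubgroup.zmultiples v) with h | h
        · rw [AddSubgroup.zmultiples_eq_bot] at h; exact absurd h hv
        · exact h
      have h2 : addOrderOf v = p := by
        have := Fact.mk hB.prime
        exact addOrderOf_eq_prime (hB.exp v) hv
      rw [← h2, ← Nat.card_zmultiples, h1]
      exact (Nat.card_congr (Equiv.Set.univ V)).symm
    · have : Subsingleton H := ⟨fun a b => by rw [hne a, hne b]⟩
      have : Nat.card H ≤ 1 := Finite.card_le_one_iff_subsingleton.mpr this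
      omega

end Cfsg.Agent.H900.BinLin
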