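import Mathlib
import Cfsg.Agent.H900.BinLin.Refl

/-!
# Two noncommuting elements of `TT`
-/

set_option autoImplicit false
set_option linter.unusedSectionVars false
set_option linter.unusedVariables false

namespace Cfsg.Agent.H900.BinLin

section Defs2

variable {H : Type*} (V : Type*) [Group H] [AddCommGroup V] [DistribMulAction H V]

/-- `C_V(s) ∩ C_V(t)` -/
def ZZ (s t : H) : AddSubgroup V := U V s ⊓ U V t

/-- `[V,s] + [V,t]` -/
def YY (s t : H) : AddSubgroup V := Im V s ⊔ Im V t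

/-- the pointwise stabilizer of `ZZ s t` -/
def KK (s t : H) : Subgroup H where
  carrier := {g | ∀ z ∈ ZZ V s t, g • z = z}
  one_mem' := fun z _ => one_smul _ _
  mul_mem' := by
    intro a b ha hb z hz
    rw [mul_smul, hb z hz, ha z hz]
  inv_mem' := by
    intro a ha z hz
    rw [inv_smul_eq_iff]
    exact (ha z hz).symm

variable {V}

theorem mem_KK {s t g : H} : g ∈ KK V s t ↔ ∀ z ∈ ZZ V s t, g • z = z := Iff.rfl

theorem mem_KK_iff_le {s t g : H} : g ∈ KK V s t ↔ ZZ V s t ≤ U V g := by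
  rw [mem_KK]
  exact ⟨fun h z hz => mem_U.mpr (h z hz), fun h z hz => mem_U.mp (h hz)⟩

theorem left_mem_KK (s t : H) : s ∈ KK V s t := fun _ hz => mem_U.mp hz.1

theorem right_mem_KK (s t : H) : t ∈ KK V s t := fun _ hz => mem_U.mp hz.2

theorem mem_YY {s t : H} {y : V} : y ∈ YY V s t ↔ ∃ a ∈ Im V s, ∃ b ∈ Im V t, a + b = y :=
  AddSubgroup.mem_sup

end Defs2

namespace BinN

variable {p : ℕ} {H V : Type*} [Group H] [AddCommGroup V] [DistribMulAction H V]
  [Finite V] [Finite H]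

theorem TT_of_U_le {r k : H} (hr : r ∈ TT H V) (hk : k ≠ 1) (h : U V r ≤ U V k) :
    k ∈ TT H V ∧ U V k = U V r := by
  have h1 : U V k = U V r := le_antisymm (hr.2 k hk h) h
  refine ⟨⟨hk, fun l hl hle => ?_⟩, h1⟩
  rw [h1] at hle ⊢
  exact hr.2 l hl hle

theorem add_mem_ZZ (hB : BinN p H V) {s t : H} (hs : s ∈ TT H V) (ht : t ∈ TT H V)
    (hst : s * t ≠ t * s) {a b : V} (ha : a ∈ Im V s) (hb : b ∈ Im V t)
    (h : a + b ∈ ZZ V s t) : a = 0 ∧ b = 0 := by
  have h1 : s • (a + b) = a + b := mem_U.mp h.1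
  have h2 : t • (a + b) = a + b := mem_U.mp h.2
  by_cases hp : p = 2
  · subst hp
    rw [smul_add, hB.TT_smul_Im hs ha, hB.neg_two] at h1
    have h3 : b = 0 := hB.eq_zero_of_noncomm ht hst hb (add_left_cancel h1)
    subst h3
    rw [add_zero] at h2
    exact ⟨hB.eq_zero_of_noncomm hs (Ne.symm hst) ha h2, rfl⟩
  · have p1 : Perp H a (a + b) := perp_of_fix_neg hB (hB.TT_smul_Im hs ha) h1
    have p2 : Perp H b (a + b) := perp_of_fix_neg hB (hB.TT_smul_Im ht hb) h2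
    have h3 : a + b = 0 := hB.perp_self hp (hB.perp_add hp p1 p2)
    have h4 : a = -b := eq_neg_of_add_eq_zero_left h3
    have hne : s ≠ t := by rintro rfl; exact hst rfl
    have h5 : a = 0 := hB.TT_disj hs ht hne ha (by rw [h4]; exact (Im V t).neg_mem hb)
    refine ⟨h5, ?_⟩
    rw [h5, zero_add] at h3
    exact h3

theorem card_V_le (hB : BinN p H V) {s t : H} (hs : s ∈ TT H V) (ht : t ∈ TT H V)
    (hst : s * t ≠ t * s) :
    Nat.card V ≤ Nat.card (Im V s) * (Nat.card (Im V t) * Nat.card (ZZ V s t)) := by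
  have h1 := (ZZ V s t).card_mul_index
  have h2 : (ZZ V s t).index ≤ (U V s).index * (U V t).index := AddSubgroup.index_inf_le
  have h3 : ∀ g : H, (U V g).index = Nat.card (Im V g) := by
    intro g
    exact AddSubgroup.index_ker _
  rw [h3, h3] at h2
  calc Nat.card V = Nat.card (ZZ V s t) * (ZZ V s t).index := h1.symm
    _ ≤ Nat.card (ZZ V s t) * (Nat.card (Im V s) * Nat.card (Im V t)) := Nat.mul_le_mul_left _ h2
    _ = _ := by ring

theorem decomp_bij (hB : BinN p H V) {s t : H} (hs : s ∈ TT H V) (ht : t ∈ TT H V)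
    (hst : s * t ≠ t * s) : Function.Bijective
      (fun x : Im V s × Im V t × ZZ V s t => (x.1 : V) + (x.2.1 : V) + (x.2.2 : V)) := by
  have hinj : Function.Injective
      (fun x : Im V s × Im V t × ZZ V s t => (x.1 : V) + (x.2.1 : V) + (x.2.2 : V)) := by
    rintro ⟨a, b, z⟩ ⟨a', b', z'⟩ h
    simp only at h
    have h1 : ((a : V) - (a' : V)) + ((b : V) - (b' : V)) = (z' : V) - (z : V) := by
      have : ((a : V) - (a' : V)) + ((b : V) - (b' : V)) =
        ((a : V) + (b : V) + (z : V)) - (a' : V) - (b' : V) - (z : V) := by abel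
      rw [this, h]; abel
    have h2 := hB.add_mem_ZZ hs ht hst (a := (a : V) - (a' : V)) (b := (b : V) - (b' : V))
      ((Im V s).sub_mem a.2 a'.2)
      ((Im V t).sub_mem b.2 b'.2) (by rw [h1]; exact (ZZ V s t).sub_mem z'.2 z.2)
    rw [h2.1, h2.2, add_zero] at h1
    have e1 : a = a' := Subtype.ext (sub_eq_zero.mp h2.1)
    have e2 : b = b' := Subtype.ext (sub_eq_zero.mp h2.2)
    have e3 : z = z' := (Subtype.ext (sub_eq_zero.mp h1.symm)).symm
    rw [e1, e2, e3]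
  refine (Nat.bijective_iff_injective_and_card _).mpr ⟨hinj, ?_⟩
  apply le_antisymm
  · exact Nat.card_le_card_of_injective _ hinj
  · rw [Nat.card_prod, Nat.card_prod]
    exact hB.card_V_le hs ht hst

theorem card_V (hB : BinN p H V) {s t : H} (hs : s ∈ TT H V) (ht : t ∈ TT H V)
    (hst : s * t ≠ t * s) :
    Nat.card V = Nat.card (Im V s) * Nat.card (Im V s) * Nat.card (ZZ V s t) := by
  have h := Nat.card_congr (Equiv.ofBijective _ (hB.decomp_bij hs ht hst))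
  rw [Nat.card_prod, Nat.card_prod, ← hB.card_Im_of_noncomm hs ht hst] at h
  rw [← h, mul_assoc]

theorem exists_decomp (hB : BinN p H V) {s t : H} (hs : s ∈ TT H V) (ht : t ∈ TT H V)
    (hst : s * t ≠ t * s) (v : V) : ∃ y ∈ YY V s t, ∃ z ∈ ZZ V s t, v = y + z := by
  obtain ⟨⟨a, b, z⟩, h⟩ := (hB.decomp_bij hs ht hst).2 v
  exact ⟨(a : V) + (b : V), mem_YY.mpr ⟨a, a.2, b, b.2, rfl⟩, z, z.2, h.symm⟩

theorem YY_inf_ZZ (hB : BinN p H V) {s t : H} (hs : s ∈ TT H V) (ht : t ∈ TT H V)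
    (hst : s * t ≠ t * s) {v : V} (hy : v ∈ YY V s t) (hz : v ∈ ZZ V s t) : v = 0 := by
  obtain ⟨a, ha, b, hb, rfl⟩ := mem_YY.mp hy
  obtain ⟨h1, h2⟩ := hB.add_mem_ZZ hs ht hst ha hb hz
  rw [h1, h2, add_zero]

theorem card_YY (hB : BinN p H V) {s t : H} (hs : s ∈ TT H V) (ht : t ∈ TT H V)
    (hst : s * t ≠ t * s) :
    Nat.card (YY V s t) = Nat.card (Im V s) * Nat.card (Im V s) := by
  have hbij : Function.Bijective
      (fun x : Im V s × Im V t => (⟨(x.1 : V) + (x.2 : V), mem_YY.mpr ⟨_, x.1.2, _, x.2.2, rfl⟩⟩ :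
        YY V s t)) := by
    constructor
    · rintro ⟨a, b⟩ ⟨a', b'⟩ h
      have h' : (a : V) + (b : V) = (a' : V) + (b' : V) := congrArg Subtype.val h
      have h2 := (hB.decomp_bij hs ht hst).1 (a₁ := (a, b, 0)) (a₂ := (a', b', 0)) (by
        simp only; rw [h'])
      simp only [Prod.mk.injEq] at h2
      rw [h2.1, h2.2.1]
    · rintro ⟨y, hy⟩
      obtain ⟨a, ha, b, hb, rfl⟩ := mem_YY.mp hy
      exact ⟨(⟨a, ha⟩, ⟨b, hb⟩), rfl⟩
  rw [← Nat.card_congr (Equiv.ofBijective _ hbij), Nat.card_prod,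
    ← hB.card_Im_of_noncomm hs ht hst]

/-- `r ∈ TT ∩ K` does not commute with both `s` and `t`. -/
theorem not_comm_both (hB : BinN p H V) {s t : H} (hs : s ∈ TT H V) (ht : t ∈ TT H V)
    (hst : s * t ≠ t * s) {r : H} (hr : r ∈ TT H V) (hrK : r ∈ KK V s t)
    (h1 : r * s = s * r) (h2 : r * t = t * r) : False := by
  have hrs : r ≠ s := by rintro rfl; exact hst h2
  have hrt : r ≠ t := by rintro rfl; exact hst h1.symm
  apply hr.1
  apply hB.faith
  intro v
  obtain ⟨y, hy, z, hz, rfl⟩ := hB.exists_decomp hs ht hst v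
  obtain ⟨a, ha, b, hb, rfl⟩ := mem_YY.mp hy
  rw [smul_add, smul_add, hB.TT_fix_of_comm hr hs hrs h1 ha, hB.TT_fix_of_comm hr ht hrt h2 hb,
    hrK z hz]

theorem card_Im_K (hB : BinN p H V) {s t : H} (hs : s ∈ TT H V) (ht : t ∈ TT H V)
    (hst : s * t ≠ t * s) {r : H} (hr : r ∈ TT H V) (hrK : r ∈ KK V s t) :
    Nat.card (Im V r) = Nat.card (Im V s) := by
  by_cases h1 : r * s = s * r
  · by_cases h2 : r * t = t * r
    · exact (hB.not_comm_both hs ht hst hr hrK h1 h2).elim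
    · rw [hB.card_Im_of_noncomm hr ht h2, ← hB.card_Im_of_noncomm hs ht hst]
  · exact hB.card_Im_of_noncomm hr hs h1

theorem Im_inf_ZZ (hB : BinN p H V) {s t : H} (hs : s ∈ TT H V) (ht : t ∈ TT H V)
    (hst : s * t ≠ t * s) {r : H} (hr : r ∈ TT H V) (hrK : r ∈ KK V s t) {a : V}
    (ha : a ∈ Im V r) (haZ : a ∈ ZZ V s t) : a = 0 := by
  by_contra h0
  have h1 := hB.TT_comm_of_fix hr h0 ha (mem_U.mp haZ.1)
  have h2 := hB.TT_comm_of_fix hr h0 ha (mem_U.mp haZ.2)
  exact hB.not_comm_both hs ht hst hr hrK h1.symm h2.symm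

theorem one_lt_card_Im (hB : BinN p H V) {g : H} (hg : g ≠ 1) : 1 < Nat.card (Im V g) := by
  obtain ⟨w, hw, h0⟩ := hB.Im_ne_bot hg
  rw [Finite.one_lt_card_iff_nontrivial]
  exact ⟨⟨w, hw⟩, 0, fun h => h0 (congrArg Subtype.val h)⟩

theorem card_U_K (hB : BinN p H V) {s t : H} (hs : s ∈ TT H V) (ht : t ∈ TT H V)
    (hst : s * t ≠ t * s) {r : H} (hr : r ∈ TT H V) (hrK : r ∈ KK V s t) :
    Nat.card (U V r) = Nat.card (Im V s) * Nat.card (ZZ V s t) := by
  have h1 := card_U_mul_card_Im (V := V) r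
  rw [hB.card_Im_K hs ht hst hr hrK, hB.card_V hs ht hst] at h1
  have hpos : 0 < Nat.card (Im V s) := Nat.card_pos
  have h2 : Nat.card (U V r) * Nat.card (Im V s) =
      (Nat.card (Im V s) * Nat.card (ZZ V s t)) * Nat.card (Im V s) := by rw [h1]; ring
  exact Nat.eq_of_mul_eq_mul_right hpos h2

/-- For noncommuting `r, r' ∈ TT ∩ K`, `U r ∩ U r' = Z`. -/
theorem U_inf_of_noncomm (hB : BinN p H V) {s t : H} (hs : s ∈ TT H V) (ht : t ∈ TT H V)
    (hst : s * t ≠ t * s) {r r' : H} (hr : r ∈ TT H V) (hrK : r ∈ KK V s t)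
    (hr' : r' ∈ TT H V) (hrK' : r' ∈ KK V s t) (h : r * r' ≠ r' * r) :
    U V r ⊓ U V r' = ZZ V s t := by
  have h1 : ZZ V s t ≤ ZZ V r r' :=
    le_inf (mem_KK_iff_le.mp hrK) (mem_KK_iff_le.mp hrK')
  have h2 := hB.card_V hr hr' h
  rw [hB.card_Im_K hs ht hst hr hrK, hB.card_V hs ht hst] at h2
  have hpos : 0 < Nat.card (Im V s) * Nat.card (Im V s) :=
    Nat.mul_pos Nat.card_pos Nat.card_pos
  have h3 := Nat.eq_of_mul_eq_mul_left hpos h2
  have h4 : ZZ V s t = ZZ V r r' := by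
    apply SetLike.coe_injective
    exact Set.eq_of_subset_of_ncard_le h1 (by
      rw [← Nat.card_coe_set_eq, ← Nat.card_coe_set_eq]; exact h3.symm.le) (Set.toFinite _)
  exact h4.symm

end BinN

end Cfsg.Agent.H900.BinLin
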